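import Mathlib.LinearAlgebra.FiniteDimensional.Lemmas
import Mathlib.LinearAlgebra.FreeModule.Finite.Matrix
import Mathlib.LinearAlgebra.Dimension.Constructions
import Mathlib.Tactic

/-!
The centraliser algebra of a unipotent-or-semisimple map is bigger than the square of its fixed space.
-/

set_option autoImplicit false

namespace CfsgLib.FixedHalf

open Module

variable {K V : Type*} [Field K] [AddCommGroup V] [Module K V] [FiniteDimensional K V]

theorem sq_fixed_lt (r r' : Module.End K V) (hr : r * r' = 1) (hr1 : r ≠ 1)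
    (T : Module.End K (Module.End K V)) (hT : ∀ φ, T φ = r * φ * r') :
    finrank K (LinearMap.ker (r - 1)) * finrank K (LinearMap.ker (r - 1)) + 1 ≤
      finrank K (LinearMap.ker (T - 1)) := by
  set S := r - 1 with hS
  set F := LinearMap.ker S with hF
  set I := LinearMap.range S with hI
  let Λ : ((V ⧸ I) →ₗ[K] F) →ₗ[K] Module.End K V :=
    { toFun := fun φ => F.subtype ∘ₗ φ ∘ₗ I.mkQ
      map_add' := fun _ _ => rfl
      map_smul' := fun _ _ => rfl }
  have hΛ : Function.Injective Λ := fun φ ψ h => by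
    refine LinearMap.ext fun y => ?_
    obtain ⟨x, rfl⟩ := Submodule.mkQ_surjective I y
    exact Subtype.ext (LinearMap.congr_fun h x)
  have hle : LinearMap.range Λ ≤ LinearMap.ker (T - 1) := by
    rintro _ ⟨φ, rfl⟩
    set ψ := Λ φ with hψ
    have h1 : r * ψ = ψ := by
      refine LinearMap.ext fun x => ?_
      have : (r - 1) ((φ (I.mkQ x) : F) : V) = 0 := (φ (I.mkQ x)).2
      exact sub_eq_zero.1 this
    have h2 : ψ * r = ψ := by
      refine LinearMap.ext fun x => ?_
      have : I.mkQ (r x) = I.mkQ x := (Submodule.Quotient.eq I).2 ⟨x, rfl⟩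
      show ((φ (I.mkQ (r x)) : F) : V) = ((φ (I.mkQ x) : F) : V)
      rw [this]
    rw [LinearMap.mem_ker, LinearMap.sub_apply, Module.End.one_apply, sub_eq_zero, hT, h1]
    conv_lhs => rw [← h2, mul_assoc, hr, mul_one]
  have hlt : LinearMap.range Λ < LinearMap.ker (T - 1) := by
    refine lt_of_le_of_ne hle fun h => hr1 ?_
    have h1 : (1 : Module.End K V) ∈ LinearMap.ker (T - 1) := by
      rw [LinearMap.mem_ker, LinearMap.sub_apply, Module.End.one_apply, sub_eq_zero, hT, mul_one, hr]
    rw [← h] at h1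
    obtain ⟨φ, hφ⟩ := h1
    refine sub_eq_zero.1 (LinearMap.ext fun x => ?_)
    show S x = 0
    have h2 : S x = ((φ (I.mkQ (S x)) : F) : V) := (LinearMap.congr_fun hφ (S x)).symm
    rw [h2, show I.mkQ (S x) = 0 from (Submodule.Quotient.mk_eq_zero I).2 ⟨x, rfl⟩, map_zero]
    rfl
  have h := Submodule.finrank_lt_finrank_of_lt hlt
  rw [LinearMap.finrank_range_of_inj hΛ, Module.finrank_linearMap] at h
  have hq : finrank K (V ⧸ I) = finrank K F := by
    have e1 := I.finrank_quotient_add_finrank
    have e2 := S.finrank_range_add_finrank_ker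
    rw [← hF, ← hI] at e2
    omega
  rw [hq] at h
  omega

end CfsgLib.FixedHalf
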