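import Mathlib.LinearAlgebra.Dimension.Constructions
import Mathlib.LinearAlgebra.FiniteDimensional.Lemmas
import Mathlib.GroupTheory.GroupAction.Quotient
import Mathlib.GroupTheory.Sylow
import Mathlib.GroupTheory.Perm.Cycle.Type

/-!
Fixed spaces of maps permuting the summands of a direct decomposition.
-/

set_option autoImplicit false

namespace CfsgLib.FixedHalf

open Module

/-- Twice counted orbits of a permutation of prime order. -/
theorem orbits_eq {ι : Type*} [Finite ι] {p : ℕ} (hp : p.Prime) (σ : Equiv.Perm ι) (hσ : orderOf σ = p) :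
    Nat.card (MulAction.orbitRel.Quotient (Subgroup.zpowers σ) ι) * p =
      Nat.card ι + (p - 1) * Nat.card {i // σ i = i} := by
  classical
  haveI := Fintype.ofFinite ι
  haveI : Finite (Subgroup.zpowers σ) := inferInstance
  haveI := Fintype.ofFinite (Subgroup.zpowers σ)
  haveI : Fintype (MulAction.orbitRel.Quotient (Subgroup.zpowers σ) ι) := Fintype.ofFinite _
  have hb := MulAction.sum_card_fixedBy_eq_card_orbits_mul_card_group (Subgroup.zpowers σ) ι
  have hcard : Fintype.card (Subgroup.zpowers σ) = p := by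
    rw [← Nat.card_eq_fintype_card, Nat.card_zpowers, hσ]
  rw [hcard] at hb
  rw [Nat.card_eq_fintype_card, ← hb, ← Finset.add_sum_erase _ _ (Finset.mem_univ (1 : Subgroup.zpowers σ))]
  congr 1
  · rw [Nat.card_eq_fintype_card]
    refine Fintype.card_congr (Equiv.subtypeUnivEquiv fun i => ?_)
    show (1 : Subgroup.zpowers σ) • i = i
    exact one_smul _ i
  · rw [Finset.sum_congr rfl (g := fun _ => Nat.card {i // σ i = i})]
    · rw [Finset.sum_const, Finset.card_erase_of_mem (Finset.mem_univ _), Finset.card_univ, hcard, smul_eq_mul]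
    · intro h hh
      rw [← Nat.card_eq_fintype_card]
      refine Nat.card_congr (Equiv.subtypeEquivRight fun i => ?_)
      constructor
      · intro hi
        have hi' : (h : Equiv.Perm ι) i = i := hi
        have hne : (h : Equiv.Perm ι) ≠ 1 := fun e => (Finset.mem_erase.1 hh).1 (Subtype.ext e)
        have hord : orderOf (h : Equiv.Perm ι) = p := by
          obtain ⟨z, hz⟩ := h.2
          refine ((Nat.dvd_prime hp).1 ?_).resolve_left (mt orderOf_eq_one_iff.1 hne)
          rw [orderOf_dvd_iff_pow_eq_one, ← hz]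
          dsimp only
          rw [← zpow_natCast, zpow_comm, zpow_natCast, ← hσ, pow_orderOf_eq_one, one_zpow]
        have heq : Subgroup.zpowers (h : Equiv.Perm ι) = Subgroup.zpowers σ :=
          Subgroup.eq_of_le_of_card_ge (Subgroup.zpowers_le.2 h.2) (by rw [Nat.card_zpowers, Nat.card_zpowers, hσ, hord])
        have hm : σ ∈ Subgroup.zpowers (h : Equiv.Perm ι) := by rw [heq]; exact Subgroup.mem_zpowers σ
        obtain ⟨z, hz⟩ := hm
        rw [← hz]
        exact Equiv.Perm.zpow_apply_eq_self_of_apply_eq_self hi' z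
      · intro hi
        obtain ⟨z, hz⟩ := h.2
        show (h : Equiv.Perm ι) i = i
        rw [← hz]
        exact Equiv.Perm.zpow_apply_eq_self_of_apply_eq_self hi z

/-- The moved points of a permutation of prime order come in `p`s. -/
theorem card_modEq {ι : Type*} [Finite ι] {p : ℕ} (hp : p.Prime) (σ : Equiv.Perm ι) (hσ : σ ^ p = 1) :
    Nat.card ι ≡ Nat.card {i // σ i = i} [MOD p] := by
  classical
  haveI := Fintype.ofFinite ι
  haveI : Fact p.Prime := ⟨hp⟩
  have h := Equiv.Perm.card_compl_support_modEq (p := p) (n := 1) (σ := σ) (by rwa [pow_one])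
  rw [Nat.card_eq_fintype_card, Nat.card_eq_fintype_card]
  refine (h.symm).trans ?_
  rw [Fintype.card_subtype]
  rw [show (σ.supportᶜ) = Finset.univ.filter (fun i => σ i = i) by ext i; simp]

variable {K V : Type*} [Field K] [AddCommGroup V] [Module K V] [FiniteDimensional K V]

/-- Fixed space of a map permuting independent summands of equal dimension. -/
theorem fixed_le {ι : Type*} [Finite ι] {p : ℕ} (hp : p.Prime) (W : ι → Submodule K V) (hind : iSupIndep W)
    (htop : ⨆ i, W i = ⊤) (d : ℕ) (hd : ∀ i, finrank K (W i) = d) (σ : Equiv.Perm ι) (hσ : σ ^ p = 1)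
    (T : Module.End K V) (hT : ∀ i, ∀ v ∈ W i, T v ∈ W (σ i)) :
    p * finrank K (LinearMap.ker (T - 1)) ≤ (Nat.card ι + (p - 1) * Nat.card {i // σ i = i}) * d ∧
      finrank K V = Nat.card ι * d := by
  classical
  haveI := Fintype.ofFinite ι
  let L : (∀ i, W i) →ₗ[K] V := ∑ i, (W i).subtype ∘ₗ LinearMap.proj i
  have hL : ∀ x : ∀ i, W i, L x = ∑ i, (x i : V) := fun x => by simp [L]
  have hinj : Function.Injective L := by
    rw [← LinearMap.ker_eq_bot, Submodule.eq_bot_iff]
    intro x hx
    rw [LinearMap.mem_ker, hL] at hx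
    funext i
    rw [← Finset.add_sum_erase _ _ (Finset.mem_univ i), add_eq_zero_iff_eq_neg] at hx
    have hm : (x i : V) ∈ ⨆ j, ⨆ (_ : j ≠ i), W j := by
      rw [hx]
      refine Submodule.neg_mem _ (Submodule.sum_mem _ fun j hj => ?_)
      exact Submodule.mem_iSup_of_mem j (Submodule.mem_iSup_of_mem (Finset.mem_erase.1 hj).1 (x j).2)
    exact Subtype.ext ((Submodule.disjoint_def.1 (hind i)) _ (x i).2 hm)
  have hsur : Function.Surjective L := by
    rw [← LinearMap.range_eq_top, eq_top_iff, ← htop, iSup_le_iff]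
    intro i v hv
    refine ⟨Pi.single i ⟨v, hv⟩, ?_⟩
    rw [hL, Finset.sum_eq_single i]
    · simp
    · intro j _ hj; simp [hj]
    · simp
  let e := LinearEquiv.ofBijective L ⟨hinj, hsur⟩
  have hn : finrank K V = Nat.card ι * d := by
    rw [← e.finrank_eq, Module.finrank_pi_fintype, Finset.sum_congr rfl (fun i _ => hd i), Finset.sum_const,
      Finset.card_univ, smul_eq_mul, Nat.card_eq_fintype_card]
  refine ⟨?_, hn⟩
  by_cases h1 : σ = 1
  · calc p * finrank K (LinearMap.ker (T - 1)) ≤ p * finrank K V := Nat.mul_le_mul_left _ (Submodule.finrank_le _)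
      _ = p * Nat.card ι * d := by rw [hn]; ring
      _ = (Nat.card ι + (p - 1) * Nat.card {i // σ i = i}) * d := by
        have : Nat.card {i // σ i = i} = Nat.card ι := Nat.card_congr (Equiv.subtypeUnivEquiv fun i => by rw [h1]; rfl)
        rw [this]
        obtain ⟨p', rfl⟩ : ∃ p', p = p' + 1 := ⟨p - 1, by have := hp.pos; omega⟩
        rw [Nat.add_sub_cancel]; ring
  have hord : orderOf σ = p := by haveI : Fact p.Prime := ⟨hp⟩; exact orderOf_eq_prime hσ h1
  set Ω := MulAction.orbitRel.Quotient (Subgroup.zpowers σ) ι with hΩ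
  haveI : Fintype Ω := Fintype.ofFinite _
  let Φ : LinearMap.ker (T - 1) →ₗ[K] ∀ w : Ω, W w.out :=
    LinearMap.pi fun w => LinearMap.proj w.out ∘ₗ (e.symm : V →ₗ[K] ∀ i, W i) ∘ₗ (LinearMap.ker (T - 1)).subtype
  have hΦ : Function.Injective Φ := by
    rw [← LinearMap.ker_eq_bot, Submodule.eq_bot_iff]
    intro v hv
    rw [LinearMap.mem_ker] at hv
    set x := e.symm (v : V) with hx
    have hLx : L x = v := e.apply_symm_apply (v : V)
    have hTv : T (v : V) = v := sub_eq_zero.1 v.2
    -- the image decomposition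
    let x' : ∀ i, W i := fun i => ⟨T (x (σ⁻¹ i)), by
      have := hT _ _ (x (σ⁻¹ i)).2
      rwa [show σ (σ⁻¹ i) = i from σ.apply_symm_apply i] at this⟩
    have hx' : x' = x := hinj (by
      rw [hLx, ← hTv, ← hLx, hL, hL, map_sum]
      exact Equiv.sum_comp σ⁻¹ (fun i => T (x i : V)))
    have hstep : ∀ i, (x (σ i) : V) = T (x i) := fun i => by
      conv_lhs => rw [← hx']
      show T (x (σ⁻¹ (σ i)) : V) = _
      rw [show σ⁻¹ (σ i) = i from σ.symm_apply_apply i]
    have hpw : ∀ (n : ℕ) i j, (σ ^ n) i = j → (x i : V) = 0 → (x j : V) = 0 := by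
      intro n
      induction n with
      | zero => intro i j hij hi; obtain rfl : i = j := hij; exact hi
      | succ n ih =>
        intro i j hij hi
        rw [pow_succ', Equiv.Perm.mul_apply] at hij
        subst hij
        rw [hstep, ih i _ rfl hi, map_zero]
    have hz : x = 0 := funext fun i => Subtype.ext (by
      set w : Ω := Quotient.mk'' i with hw
      have h0 : (x w.out : V) = 0 := congrArg Subtype.val (congrFun hv w)
      obtain ⟨⟨h, hh⟩, hhi⟩ : i ∈ MulAction.orbit (Subgroup.zpowers σ) w.out := by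
        have : (MulAction.orbitRel (Subgroup.zpowers σ) ι) i w.out := Quotient.eq''.1 (by rw [Quotient.out_eq'])
        exact this
      rw [← mem_powers_iff_mem_zpowers] at hh
      obtain ⟨n, rfl⟩ := hh
      have hhi' : (σ ^ n) w.out = i := hhi
      exact hpw n _ _ hhi' h0)
    exact Subtype.ext (by rw [← hLx, hz, map_zero]; rfl)
  have h2 := LinearMap.finrank_le_finrank_of_injective hΦ
  rw [Module.finrank_pi_fintype, Finset.sum_congr rfl (fun w _ => hd _), Finset.sum_const, Finset.card_univ,
    smul_eq_mul, ← Nat.card_eq_fintype_card] at h2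
  calc p * finrank K (LinearMap.ker (T - 1)) ≤ p * (Nat.card Ω * d) := Nat.mul_le_mul_left _ h2
    _ = Nat.card Ω * p * d := by ring
    _ = _ := by rw [hΩ, orbits_eq hp σ hord]

end CfsgLib.FixedHalf
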