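import Cfsg.Agent.FixedHalf.Transvection
import Cfsg.Agent.FixedHalf.Orbit
import Cfsg.Agent.FixedHalf.Lower
import Mathlib.GroupTheory.PGroup
import Mathlib.Algebra.Module.ZMod

/-!
The case that every abelian normal subgroup is central.
-/

set_option autoImplicit false

open scoped commutatorElement

namespace CfsgLib.FixedHalf

open Module

/-- The numerical inequality. -/
theorem index_bound {p q j : ℕ} (hp : p.Prime) (hp5 : 5 ≤ p) (hq : q.Prime) (hj : 2 ≤ j)
    (h : q = p ∨ q ^ j ≡ 1 [MOD p]) : 4 * (q ^ j + (p - 1)) ≤ p * q ^ j := by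
  have h1 : 4 ≤ q ^ j := le_trans (by norm_num) (le_trans (Nat.pow_le_pow_left hq.two_le 2) (Nat.pow_le_pow_right hq.pos hj))
  obtain ⟨t, ht⟩ : ∃ t, p = t + 5 := ⟨p - 5, by omega⟩
  subst ht
  rcases h with rfl | h
  · have : (t + 5) ^ 2 ≤ (t + 5) ^ j := Nat.pow_le_pow_right (by omega) hj
    rw [show t + 5 - 1 = t + 4 by omega]
    nlinarith
  · have hdvd : t + 5 ∣ q ^ j - 1 := (Nat.modEq_iff_dvd' (by omega)).1 h.symm
    obtain ⟨m, hm⟩ := hdvd
    have hm0 : m ≠ 0 := by rintro rfl; omega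
    have hge : t + 5 ≤ q ^ j - 1 := by rw [hm]; exact Nat.le_mul_of_pos_right _ (Nat.pos_of_ne_zero hm0)
    rw [show t + 5 - 1 = t + 4 by omega]
    rcases le_or_gt 6 t with ht | ht
    · have : t + 6 ≤ q ^ j := by omega
      nlinarith
    · have ht' : t = 0 ∨ t = 2 := by
        interval_cases t <;> simp_all (config := {decide := true})
      rcases ht' with rfl | rfl
      · have hne : ∀ N : ℕ, N = 6 ∨ N = 11 → q ^ j ≠ N := by
          intro N hN he
          have hsq : q ^ 2 ≤ N := by rw [← he]; exact Nat.pow_le_pow_right hq.pos hj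
          have hqN : q < 4 := by
            by_contra hh
            have : 4 ^ 2 ≤ q ^ 2 := Nat.pow_le_pow_left (by omega) 2
            omega
          have hdq : q ∣ N := by rw [← he]; exact dvd_pow_self q (by omega)
          have hj4 : j < 4 := by
            by_contra hh
            have : 2 ^ 4 ≤ q ^ j := le_trans (Nat.pow_le_pow_left hq.two_le 4) (Nat.pow_le_pow_right hq.pos (by omega))
            omega
          have h2 := hq.two_le
          interval_cases q <;> interval_cases j <;> omega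
        have e6 := hne 6 (Or.inl rfl)
        have e11 := hne 11 (Or.inr rfl)
        omega
      · omega

/-- A transvection in multiplicative language. -/
theorem no_transvection_group {G : Type*} [Group G] [Finite G] [Group.IsSolvable G] {p : ℕ} [Fact p.Prime]
    (hp5 : 5 ≤ p) {U : Type*} [CommGroup U] (hexp : ∀ u : U, u ^ p = 1) (act : G → (U →* U))
    (hact1 : ∀ u, act 1 u = u) (hactm : ∀ h h' u, act (h * h') u = act h (act h' u)) {g : G}
    (hgen : ∀ H : Subgroup G, H.Normal → g ∈ H → H = ⊤)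
    (hirr : ∀ S : Subgroup U, (∀ h, ∀ u ∈ S, act h u ∈ S) → S = ⊥ ∨ S = ⊤)
    (w : U) (hw1 : w ≠ 1) (hgw : act g w = w) (hg1 : ∃ u, act g u ≠ u)
    (hrange : ∀ u, ∃ m : ℤ, act g u = w ^ m * u) : False := by
  haveI inst : Module (ZMod p) (Additive U) := AddCommGroup.zmodModule (fun x => by
    show Additive.ofMul (Additive.toMul x ^ p) = 0
    rw [hexp]; rfl)
  let Ψ : G → Module.End (ZMod p) (Additive U) := fun h =>
    { toFun := fun u => Additive.ofMul (act h (Additive.toMul u))
      map_add' := fun u v => congrArg Additive.ofMul (map_mul (act h) (Additive.toMul u) (Additive.toMul v))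
      map_smul' := fun c u => ZMod.map_smul (MonoidHom.toAdditive (act h)) c u }
  have hΨ1 : Ψ 1 = 1 := by
    refine LinearMap.ext fun u => ?_
    rw [Module.End.one_apply]
    exact congrArg Additive.ofMul (hact1 (Additive.toMul u))
  have hΨm : ∀ h h', Ψ (h * h') = Ψ h * Ψ h' := by
    intro h h'
    refine LinearMap.ext fun u => ?_
    rw [Module.End.mul_apply]
    exact congrArg Additive.ofMul (hactm h h' (Additive.toMul u))
  let ψ : G →* Module.End (ZMod p) (Additive U) := MonoidHom.mk ⟨Ψ, hΨ1⟩ hΨm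
  have hψ : ∀ h (u : U), ψ h (Additive.ofMul u) = Additive.ofMul (act h u) := fun h u => rfl
  refine no_transvection (k := ZMod p) hp5 ψ hgen ?_ (Additive.ofMul w) ?_ ?_ ?_ ?_
  · intro S hS
    let P : Subgroup U :=
      { carrier := {u | Additive.ofMul u ∈ S}
        one_mem' := S.zero_mem
        mul_mem' := fun {a b} ha hb => S.add_mem ha hb
        inv_mem' := fun {a} ha => S.neg_mem ha }
    rcases hirr P (fun h u hu => show Additive.ofMul (act h u) ∈ S by rw [← hψ]; exact hS h _ hu) with h | h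
    · left
      rw [Submodule.eq_bot_iff]
      intro u hu
      have h1 : Additive.toMul u ∈ P := hu
      rw [h, Subgroup.mem_bot] at h1
      exact congrArg Additive.ofMul h1
    · right
      rw [eq_top_iff]
      intro u _
      exact (show Additive.toMul u ∈ P by rw [h]; trivial)
  · exact fun h => hw1 (Additive.ofMul.injective h)
  · rw [LinearMap.sub_apply, Module.End.one_apply, hψ, hgw, sub_self]
  · intro h
    obtain ⟨u, hu⟩ := hg1
    apply hu
    apply Additive.ofMul.injective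
    rw [← hψ, h, Module.End.one_apply]
  · intro u
    obtain ⟨m, hm⟩ := hrange (Additive.toMul u)
    refine ⟨(m : ZMod p), ?_⟩
    rw [LinearMap.sub_apply, Module.End.one_apply, Int.cast_smul_eq_zsmul]
    show Additive.ofMul (act g (Additive.toMul u)) - u = m • Additive.ofMul w
    rw [hm, ofMul_mul, ofMul_zpow, show Additive.ofMul (Additive.toMul u) = u from rfl, add_sub_cancel_right]

variable {G : Type*} [Group G] [Finite G] [Group.IsSolvable G]
variable {K : Type*} [Field K] {V : Type*} [AddCommGroup V] [Module K V] [FiniteDimensional K V]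

set_option maxHeartbeats 1000000 in
theorem fixed_half_central {ℓ : ℕ} [Fact ℓ.Prime] [CharP K ℓ] [Nontrivial V]
    (ρ : G →* Module.End K V) (hinj : Function.Injective ρ)
    (hscal : ∀ z, z ∈ Subgroup.center G ↔ ∃ c : K, ρ z = c • 1)
    (habel : ∀ A : Subgroup G, A.Normal → (∀ a ∈ A, ∀ b ∈ A, Commute a b) → A ≤ Subgroup.center G)
    {p : ℕ} [hpf : Fact p.Prime] (hp5 : 5 ≤ p) {g : G} (hg : g ^ p = 1) (hgc : g ∉ Subgroup.center G)
    (hgen : ∀ H : Subgroup G, H.Normal → g ∈ H → H = ⊤) :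
    2 * finrank K (LinearMap.ker (ρ g - 1)) < finrank K V := by
  classical
  have hp := hpf.out
  obtain ⟨N, hN, hNc, hNmin⟩ := exists_min_above (fun A : Subgroup G => ¬ A ≤ Subgroup.center G)
    (fun h => hgc (h (Subgroup.mem_top g)))
  haveI := hN
  have hNN : ∀ x ∈ N, ∀ y ∈ N, ⁅x, y⁆ ∈ Subgroup.center G := by
    intro x hx y hy
    have : ⁅N, N⁆ ≤ Subgroup.center G := by
      by_contra h
      have hne : N ≠ ⊥ := fun h0 => hNc (h0 ▸ bot_le)
      exact (Group.IsSolvable.commutator_lt_of_ne_bot hne).ne (hNmin _ inferInstance (Subgroup.commutator_le_self N) h)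
    exact this (Subgroup.commutator_mem_commutator hx hy)
  have hrad : ∀ x ∈ N, (∀ y ∈ N, Commute x y) → x ∈ Subgroup.center G := by
    intro x hx hxc
    exact habel (N ⊓ Subgroup.centralizer (N : Set G)) inferInstance
      (fun a ha b hb => (ha.2 b hb.1).symm) ⟨hx, fun y hy => (hxc y hy).eq.symm⟩
  set Z := (Subgroup.center G).subgroupOf N with hZdef
  set U := N ⧸ Z with hU
  letI : CommGroup U := { (inferInstance : Group U) with
    mul_comm := fun u v => by
      obtain ⟨a, rfl⟩ := QuotientGroup.mk_surjective u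
      obtain ⟨b, rfl⟩ := QuotientGroup.mk_surjective v
      rw [← QuotientGroup.mk_mul, ← QuotientGroup.mk_mul, QuotientGroup.eq, hZdef, Subgroup.mem_subgroupOf]
      push_cast
      rw [show ((a : G) * b)⁻¹ * (b * a) = ⁅(b : G)⁻¹, (a : G)⁻¹⁆ by rw [commutatorElement_def]; group]
      exact hNN _ (inv_mem b.2) _ (inv_mem a.2) }
  -- scalars
  have hs : ∀ a b : K, a • (1 : Module.End K V) = b • 1 → a = b := fun a b h =>
    smul_left_injective K (one_ne_zero (α := Module.End K V)) h
  have hρi : ∀ h : G, ρ h⁻¹ * ρ h = 1 ∧ ρ h * ρ h⁻¹ = 1 := fun h => by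
    rw [← map_mul, ← map_mul, inv_mul_cancel, mul_inv_cancel, map_one]
    exact ⟨rfl, rfl⟩
  choose c hc using fun (x : N) (y : N) => (hscal _).1 (hNN _ x.2 _ y.2)
  have hc0 : ∀ x y, c x y ≠ 0 := fun x y h => by
    have h1 := (hρi ⁅(x : G), (y : G)⁆).2
    rw [hc x y, h, zero_smul, zero_mul] at h1
    exact zero_ne_one h1
  have hcl : ∀ x y w : N, c (x * y) w = c x w * c y w := by
    intro x y w
    apply hs
    rw [← hc, show ⁅((x * y : N) : G), (w : G)⁆ = ((x : G) * ⁅(y : G), (w : G)⁆ * (x : G)⁻¹) * ⁅(x : G), (w : G)⁆ by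
      push_cast; rw [commutatorElement_def, commutatorElement_def, commutatorElement_def]; group,
      Subgroup.mem_center_iff.1 (hNN _ y.2 _ w.2) x, mul_inv_cancel_right, map_mul, hc, hc]
    rw [smul_mul_smul_comm, mul_one, mul_comm]
  have hcr : ∀ x y w : N, c x (y * w) = c x y * c x w := by
    intro x y w
    apply hs
    rw [← hc, show ⁅(x : G), ((y * w : N) : G)⁆ = ⁅(x : G), (y : G)⁆ * ((y : G) * ⁅(x : G), (w : G)⁆ * (y : G)⁻¹) by
      push_cast; rw [commutatorElement_def, commutatorElement_def, commutatorElement_def]; group,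
      Subgroup.mem_center_iff.1 (hNN _ x.2 _ w.2) y, mul_inv_cancel_right, map_mul, hc, hc]
    rw [smul_mul_smul_comm, mul_one]
  have hc1 : ∀ x y : N, (c x y = 1 ↔ Commute (x : G) y) := by
    intro x y
    rw [← commutatorElement_eq_one_iff_commute, ← hinj.eq_iff, hc, map_one]
    exact ⟨fun h => by rw [h, one_smul], fun h => hs _ _ (by rw [h, one_smul])⟩
  have hcz : ∀ z ∈ Z, ∀ y : N, c z y = 1 ∧ c y z = 1 := fun z hz y => by
    have h : ∀ a : G, a * (z : G) = z * a := Subgroup.mem_center_iff.1 hz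
    exact ⟨(hc1 _ _).2 (h y).symm, (hc1 _ _).2 (h y)⟩
  let χ : U → U → K := fun u v => c v.out u.out
  have hχ : ∀ x y : N, χ (x : U) (y : U) = c y x := by
    intro x y
    show c (Quotient.out (y : U)) (Quotient.out (x : U)) = _
    obtain ⟨z, hz⟩ := QuotientGroup.mk_out_eq_mul Z x
    obtain ⟨z', hz'⟩ := QuotientGroup.mk_out_eq_mul Z y
    rw [hz, hz', hcl, hcr, hcr, (hcz _ z'.2 x).1, (hcz _ z.2 y).2, (hcz _ z'.2 _).1]
    ring
  have hχl : ∀ u u' v : U, χ (u * u') v = χ u v * χ u' v := by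
    intro u u' v
    obtain ⟨a, rfl⟩ := QuotientGroup.mk_surjective u
    obtain ⟨a', rfl⟩ := QuotientGroup.mk_surjective u'
    obtain ⟨b, rfl⟩ := QuotientGroup.mk_surjective v
    rw [← QuotientGroup.mk_mul, hχ, hχ, hχ, hcr]
  have hχr : ∀ u v v' : U, χ u (v * v') = χ u v * χ u v' := by
    intro u v v'
    obtain ⟨a, rfl⟩ := QuotientGroup.mk_surjective u
    obtain ⟨b, rfl⟩ := QuotientGroup.mk_surjective v
    obtain ⟨b', rfl⟩ := QuotientGroup.mk_surjective v'
    rw [← QuotientGroup.mk_mul, hχ, hχ, hχ, hcl]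
  have hχ0 : ∀ u v, χ u v ≠ 0 := fun u v => hc0 _ _
  have hχ1 : ∀ u : U, ((∀ v, χ u v = 1) → u = 1) ∧ ((∀ v, χ v u = 1) → u = 1) := by
    intro u
    obtain ⟨a, rfl⟩ := QuotientGroup.mk_surjective u
    constructor <;> intro h <;> rw [QuotientGroup.eq_one_iff, hZdef, Subgroup.mem_subgroupOf] <;>
      refine hrad _ a.2 fun y hy => ?_
    · have := h ((⟨y, hy⟩ : N) : U)
      rw [hχ, hc1] at this
      exact this.symm
    · have := h ((⟨y, hy⟩ : N) : U)
      rw [hχ, hc1] at this
      exact this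
  -- exponent
  obtain ⟨x0, hx0N, hx0c⟩ : ∃ x ∈ N, x ∉ Subgroup.center G := SetLike.not_le_iff_exists.1 hNc
  have hord : orderOf ((⟨x0, hx0N⟩ : N) : U) ≠ 1 := fun h => hx0c (by
    rwa [orderOf_eq_one_iff, QuotientGroup.eq_one_iff, hZdef, Subgroup.mem_subgroupOf] at h)
  set q := (orderOf ((⟨x0, hx0N⟩ : N) : U)).minFac with hqdef
  haveI hqf : Fact q.Prime := ⟨Nat.minFac_prime hord⟩
  have hq := hqf.out
  have hexp : ∀ u : U, u ^ q = 1 := by
    let P : Subgroup G :=
      { carrier := {x | ∃ hx : x ∈ N, ((⟨x, hx⟩ : N) : U) ^ q = 1}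
        one_mem' := ⟨N.one_mem, by rw [show ((⟨1, N.one_mem⟩ : N) : U) = 1 from rfl, one_pow]⟩
        mul_mem' := fun {a b} ⟨ha, ha'⟩ ⟨hb, hb'⟩ => ⟨N.mul_mem ha hb, by
          rw [show ((⟨a * b, N.mul_mem ha hb⟩ : N) : U) = ((⟨a, ha⟩ : N) : U) * ((⟨b, hb⟩ : N) : U) from rfl,
            mul_pow, ha', hb', one_mul]⟩
        inv_mem' := fun {a} ⟨ha, ha'⟩ => ⟨N.inv_mem ha, by
          rw [show ((⟨a⁻¹, N.inv_mem ha⟩ : N) : U) = ((⟨a, ha⟩ : N) : U)⁻¹ from rfl, inv_pow, ha', inv_one]⟩ }
    have hPn : P.Normal := ⟨fun a hab b => by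
      obtain ⟨ha, ha'⟩ := hab
      refine ⟨hN.conj_mem a ha b, ?_⟩
      rw [← QuotientGroup.mk_pow, QuotientGroup.eq_one_iff, hZdef, Subgroup.mem_subgroupOf] at ha' ⊢
      push_cast at ha' ⊢
      rw [conj_pow]
      exact Subgroup.Normal.conj_mem inferInstance _ ha' b⟩
    have hPN : P = N := by
      refine hNmin P hPn (fun a ha => ha.1) fun hle => ?_
      obtain ⟨y, hy⟩ := exists_prime_orderOf_dvd_card' (G := Subgroup.zpowers ((⟨x0, hx0N⟩ : N) : U)) q
        (by rw [Nat.card_zpowers]; exact Nat.minFac_dvd _)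
      obtain ⟨m, hm⟩ := QuotientGroup.mk_surjective (y : U)
      have h1 : ((⟨(m : G), m.2⟩ : N) : U) ^ q = 1 := by
        rw [hm, ← Subgroup.coe_pow, ← hy, pow_orderOf_eq_one, Subgroup.coe_one]
      have h2 : (y : U) = 1 := by
        rw [← hm, QuotientGroup.eq_one_iff, hZdef, Subgroup.mem_subgroupOf]
        exact hle ⟨m.2, h1⟩
      rw [show y = 1 from Subtype.ext h2, orderOf_one] at hy
      exact hq.one_lt.ne hy
    intro u
    obtain ⟨a, rfl⟩ := QuotientGroup.mk_surjective u
    obtain ⟨_, h⟩ : (a : G) ∈ P := by rw [hPN]; exact a.2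
    exact h
  have hqK : (q : K) ≠ 0 := by
    intro h0
    obtain ⟨v, hv⟩ : ∃ v, χ ((⟨x0, hx0N⟩ : N) : U) v ≠ 1 := by
      by_contra hh
      push_neg at hh
      exact hord (by rw [(hχ1 _).1 hh, orderOf_one])
    apply hv
    set u := ((⟨x0, hx0N⟩ : N) : U) with hu
    have hone : χ 1 v = 1 := by
      have := hχl 1 1 v
      rw [mul_one] at this
      exact (mul_eq_left₀ (hχ0 1 v)).1 this.symm
    have hpow : ∀ n : ℕ, χ (u ^ n) v = χ u v ^ n := by
      intro n
      induction n with
      | zero => simpa using hone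
      | succ n ih => rw [pow_succ, hχl, ih, pow_succ]
    have h1 : χ u v ^ q = 1 := by rw [← hpow, hexp, hone]
    have hℓq : ℓ = q := (Nat.prime_dvd_prime_iff_eq (Fact.out : ℓ.Prime) hq).1 ((CharP.cast_eq_zero_iff K ℓ q).1 h0)
    have h2 : (χ u v - 1) ^ ℓ = 0 := by rw [sub_pow_char, one_pow, hℓq, h1, sub_self]
    exact sub_eq_zero.1 (eq_zero_of_pow_eq_zero h2)
  obtain ⟨a, hcardU⟩ := IsPGroup.iff_card.1 (fun u : U => ⟨1, by rw [pow_one]; exact hexp u⟩ : IsPGroup q U)
  -- operators on endomorphisms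
  let Tc : G → Module.End K (Module.End K V) := fun h =>
    (LinearMap.mulLeft K (ρ h)) ∘ₗ (LinearMap.mulRight K (ρ h⁻¹))
  have hTc : ∀ h φ, Tc h φ = ρ h * φ * ρ h⁻¹ := fun h φ => by
    show ρ h * (φ * ρ h⁻¹) = _
    rw [mul_assoc]
  have hTm : ∀ h h' φ, Tc (h * h') φ = Tc h (Tc h' φ) := fun h h' φ => by
    rw [hTc, hTc, hTc, _root_.mul_inv_rev, map_mul, map_mul]; noncomm_ring
  have hTz : ∀ z ∈ Subgroup.center G, ∀ φ, Tc z φ = φ := fun z hz φ => by
    obtain ⟨e, he⟩ := (hscal z).1 hz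
    rw [hTc, he, smul_mul_assoc, one_mul]
    calc e • φ * ρ z⁻¹ = φ * (e • (1 : Module.End K V) * ρ z⁻¹) := by
          rw [smul_mul_assoc, smul_mul_assoc, one_mul, mul_smul_comm]
      _ = φ := by rw [← he, (hρi z).2, mul_one]
  let f : U → Module.End K (Module.End K V) := fun v => Tc ((v.out : N) : G)
  have hf : ∀ (y : N) φ, f (y : U) φ = Tc (y : G) φ := by
    intro y φ
    show Tc ((Quotient.out (y : U) : N) : G) φ = _
    obtain ⟨z, hz⟩ := QuotientGroup.mk_out_eq_mul Z y
    rw [hz]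
    push_cast
    rw [hTm, hTz _ (Subgroup.mem_subgroupOf.1 z.2)]
  have hfm : ∀ v w φ, f (v * w) φ = f v (f w φ) := by
    intro v w φ
    obtain ⟨b, rfl⟩ := QuotientGroup.mk_surjective v
    obtain ⟨b', rfl⟩ := QuotientGroup.mk_surjective w
    rw [← QuotientGroup.mk_mul, hf, hf, hf]
    push_cast
    exact hTm _ _ _
  let W : U → Submodule K (Module.End K V) := fun u => eigen f (χ u)
  have hW : ∀ u φ, φ ∈ W u ↔ ∀ v, f v φ = χ u v • φ := fun u φ => mem_eigen
  have hind : iSupIndep W := eigen_indep f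
    (fun v w => LinearMap.ext fun φ => by
      rw [Module.End.mul_apply, Module.End.mul_apply, ← hfm, ← hfm, mul_comm]) χ
    (fun u u' h => by
      have : ∀ v, χ (u * u'⁻¹) v = 1 := fun v => by
        have h1 : χ (u * u'⁻¹) v * χ u' v = χ u v := by rw [← hχl, inv_mul_cancel_right]
        rw [congrFun h v] at h1
        exact (mul_eq_right₀ (hχ0 u' v)).1 h1
      exact mul_inv_eq_one.1 ((hχ1 _).1 this))
  haveI := Fintype.ofFinite U
  have htop : ⨆ u, W u = ⊤ := by
    rw [eq_top_iff]
    intro φ _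
    have hsum : ∀ v : U, (∑ u, (χ u v)⁻¹) = if v = 1 then (Fintype.card U : K) else 0 := by
      intro v
      split_ifs with hv
      · subst hv
        have : ∀ u, χ u 1 = 1 := fun u => by
          have := hχr u 1 1
          rw [mul_one] at this
          exact (mul_eq_left₀ (hχ0 u 1)).1 this.symm
        simp [this]
      · obtain ⟨u0, hu0⟩ : ∃ u0, χ u0 v ≠ 1 := by
          by_contra hh; push_neg at hh; exact hv ((hχ1 v).2 hh)
        have h1 : ∑ u, (χ u v)⁻¹ = (χ u0 v)⁻¹ * ∑ u, (χ u v)⁻¹ := by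
          rw [Finset.mul_sum]
          refine (Fintype.sum_equiv (Equiv.mulLeft u0) _ _ fun u => ?_).symm
          simp [hχl, mul_inv, mul_comm]
        exact (mul_left_eq_self₀.1 h1.symm).resolve_left (by simpa using hu0)
    let P : U → Module.End K V := fun u => ∑ v, (χ u v)⁻¹ • f v φ
    have hP : ∀ u, P u ∈ W u := by
      intro u
      rw [hW]
      intro w
      rw [map_sum, Finset.smul_sum]
      refine Fintype.sum_equiv (Equiv.mulLeft w) _ _ fun v => ?_
      rw [map_smul, ← hfm, Equiv.coe_mulLeft, hχr, smul_smul, mul_inv, ← mul_assoc, mul_inv_cancel₀ (hχ0 u w), one_mul]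
    have hfone : f 1 φ = φ := by
      have h := hf 1 φ
      rw [QuotientGroup.mk_one] at h
      rw [h, Subgroup.coe_one, hTc]; simp
    have hsumP : ∑ u, P u = (Fintype.card U : K) • φ := by
      show ∑ u, ∑ v, (χ u v)⁻¹ • f v φ = _
      rw [Finset.sum_comm]
      simp only [← Finset.sum_smul, hsum]
      rw [Finset.sum_eq_single (1 : U)]
      · rw [if_pos rfl, hfone]
      · intro v _ hv; rw [if_neg hv, zero_smul]
      · simp
    have hU0 : (Fintype.card U : K) ≠ 0 := by
      rw [← Nat.card_eq_fintype_card, hcardU, Nat.cast_pow]; exact pow_ne_zero _ hqK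
    rw [show φ = (Fintype.card U : K)⁻¹ • ∑ u, P u by rw [hsumP, inv_smul_smul₀ hU0]]
    exact Submodule.smul_mem _ _ (Submodule.sum_mem _ fun u _ => Submodule.mem_iSup_of_mem u (hP u))
  have hmul : ∀ (x : N) (u : U), ∀ φ ∈ W u, ρ (x : G) * φ ∈ W ((x : U) * u) := by
    intro x u φ hφ
    rw [hW] at hφ ⊢
    intro v
    obtain ⟨y, rfl⟩ := QuotientGroup.mk_surjective v
    rw [hf, hχl, hχ, hTc]
    have h1 := hφ (y : U)
    rw [hf, hTc] at h1
    have h2 : ρ (y : G) * ρ (x : G) = c y x • (ρ (x : G) * ρ (y : G)) := by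
      rw [← map_mul, ← map_mul, show (y : G) * x = ⁅(y : G), (x : G)⁆ * (x * y) by rw [commutatorElement_def]; group,
        map_mul, hc, smul_mul_assoc, one_mul]
    rw [← mul_assoc, h2, smul_mul_assoc, smul_mul_assoc, mul_assoc (ρ (x : G)), mul_assoc (ρ (x : G)), h1,
      mul_smul_comm, smul_smul]
  have hdim : ∀ u, finrank K (W u) = finrank K (W 1) := by
    have key : ∀ (x : N) u, finrank K (W u) ≤ finrank K (W ((x : U) * u)) := by
      intro x u
      refine LinearMap.finrank_le_finrank_of_injective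
        (f := (LinearMap.mulLeft K (ρ (x : G))).restrict (p := W u) (q := W ((x : U) * u)) (hmul x u)) ?_
      intro φ ψ h
      have h' : ρ (x : G) * (φ : Module.End K V) = ρ (x : G) * ψ := congrArg Subtype.val h
      have h'' := congrArg (fun e => ρ (x : G)⁻¹ * e) h'
      simp only [← mul_assoc, (hρi _).1, one_mul] at h''
      exact Subtype.ext h''
    intro u
    obtain ⟨x, rfl⟩ := QuotientGroup.mk_surjective u
    apply le_antisymm
    · have := key x⁻¹ (x : U)
      rwa [QuotientGroup.mk_inv, inv_mul_cancel] at this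
    · have := key x 1
      rwa [mul_one] at this
  -- the action on the section
  let act : G → (U →* U) := fun h => QuotientGroup.map Z Z (MulAut.conjNormal h : MulAut N).toMonoidHom (fun m hm => by
    simp only [Subgroup.mem_comap, hZdef, Subgroup.mem_subgroupOf] at hm ⊢
    exact Subgroup.Normal.conj_mem inferInstance _ hm h)
  have hact : ∀ h (x : N), act h (x : U) = ((MulAut.conjNormal h x : N) : U) := fun h x => rfl
  have hactm : ∀ h h' u, act (h * h') u = act h (act h' u) := by
    intro h h' u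
    obtain ⟨x, rfl⟩ := QuotientGroup.mk_surjective u
    rw [hact, hact, hact, map_mul, MulAut.mul_apply]
  have hact1 : ∀ u, act 1 u = u := fun u => by
    obtain ⟨x, rfl⟩ := QuotientGroup.mk_surjective u
    rw [hact, map_one]; rfl
  have hcinv : ∀ (h : G) (x y : N), c (MulAut.conjNormal h x) (MulAut.conjNormal h y) = c x y := by
    intro h x y
    apply hs
    rw [← hc, ← hc, MulAut.conjNormal_apply, MulAut.conjNormal_apply,
      show ⁅h * (x : G) * h⁻¹, h * (y : G) * h⁻¹⁆ = h * ⁅(x : G), (y : G)⁆ * h⁻¹ by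
        rw [commutatorElement_def, commutatorElement_def]; group,
      Subgroup.mem_center_iff.1 (hNN _ x.2 _ y.2) h, mul_inv_cancel_right]
  have hχinv : ∀ h u v, χ (act h u) (act h v) = χ u v := by
    intro h u v
    obtain ⟨x, rfl⟩ := QuotientGroup.mk_surjective u
    obtain ⟨y, rfl⟩ := QuotientGroup.mk_surjective v
    rw [hact, hact, hχ, hχ, hcinv]
  let σ : Equiv.Perm U := ⟨act g, act g⁻¹, fun u => by rw [← hactm, inv_mul_cancel, hact1],
    fun u => by rw [← hactm, mul_inv_cancel, hact1]⟩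
  have hσk : ∀ (k : ℕ) u, (σ ^ k) u = act (g ^ k) u := by
    intro k
    induction k with
    | zero => intro u; rw [pow_zero, pow_zero, hact1]; rfl
    | succ k ih => intro u; rw [pow_succ', Equiv.Perm.mul_apply, ih, pow_succ', hactm]; rfl
  have hσp : σ ^ p = 1 := Equiv.ext fun u => by rw [hσk, hg, hact1]; rfl
  have hTW : ∀ u, ∀ φ ∈ W u, Tc g φ ∈ W (σ u) := by
    intro u φ hφ
    rw [hW] at hφ ⊢
    intro v
    obtain ⟨y, rfl⟩ := QuotientGroup.mk_surjective v
    show f (y : U) (Tc g φ) = χ (act g u) (y : U) • Tc g φ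
    have hy : (y : U) = act g ((MulAut.conjNormal g⁻¹ y : N) : U) := by
      rw [hact, ← MulAut.mul_apply, ← map_mul, mul_inv_cancel, map_one]; rfl
    conv_rhs => rw [hy, hχinv]
    rw [hf, ← map_smul, ← hφ, hf, ← hTm, ← hTm, MulAut.conjNormal_apply]
    congr 2; group
  obtain ⟨hfix, hnn⟩ := fixed_le hp W hind htop _ hdim σ hσp (Tc g) hTW
  rw [Module.finrank_linearMap] at hnn
  -- the fixed points in the section
  set C := MonoidHom.eqLocus (act g) (MonoidHom.id U) with hC
  have hFC : Nat.card {u // σ u = u} = Nat.card C := rfl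
  have hU' : Nat.card U = Nat.card C * C.index := C.card_mul_index.symm
  obtain ⟨j, hja, hIj⟩ := (Nat.dvd_prime_pow hq).1 (show C.index ∣ q ^ a by rw [← hcardU]; exact C.index_dvd_card)
  have hj0 : j ≠ 0 := by
    rintro rfl
    rw [pow_zero, Subgroup.index_eq_one] at hIj
    let D : Subgroup G :=
      { carrier := {h | ∀ u, act h u = u}
        one_mem' := hact1
        mul_mem' := fun {h h'} hh hh' u => by rw [hactm, hh', hh]
        inv_mem' := fun {h} hh u => by
          conv_lhs => rw [← hh u]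
          rw [← hactm, inv_mul_cancel, hact1] }
    have hDn : D.Normal := ⟨fun h hh b u => by rw [hactm, hactm, hh, ← hactm, mul_inv_cancel, hact1]⟩
    have hgD : g ∈ D := fun u => (hIj ▸ Subgroup.mem_top u : u ∈ C)
    have hD := hgen D hDn hgD
    refine hx0c (habel (Subgroup.closure {x0} ⊔ (N ⊓ Subgroup.center G)) ⟨fun e he b => ?_⟩ ?_
      (Subgroup.mem_sup_left (Subgroup.subset_closure rfl)))
    · have hgenx : ∀ e ∈ Subgroup.closure {x0} ⊔ (N ⊓ Subgroup.center G), b * e * b⁻¹ ∈
          Subgroup.closure {x0} ⊔ (N ⊓ Subgroup.center G) := by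
        intro e he
        obtain ⟨e1, he1, e2, he2, rfl⟩ := Subgroup.mem_sup_of_normal_right.1 he
        have he1N : e1 ∈ N := (Subgroup.closure_le N).2 (Set.singleton_subset_iff.2 hx0N) he1
        have h1 : act b ((⟨e1, he1N⟩ : N) : U) = ((⟨e1, he1N⟩ : N) : U) := (show b ∈ D by rw [hD]; trivial) _
        rw [hact, eq_comm, QuotientGroup.eq, hZdef, Subgroup.mem_subgroupOf] at h1
        push_cast at h1
        rw [MulAut.conjNormal_apply] at h1
        have h2 : e1⁻¹ * (b * e1 * b⁻¹) ∈ N ⊓ Subgroup.center G :=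
          Subgroup.mem_inf.2 ⟨N.mul_mem (N.inv_mem he1N) (hN.conj_mem _ he1N b), h1⟩
        have h3 : b * (e1 * e2) * b⁻¹ = e1 * ((e1⁻¹ * (b * e1 * b⁻¹)) * e2) := by
          rw [show b * (e1 * e2) * b⁻¹ = b * e1 * (e2 * b⁻¹) by group, ← Subgroup.mem_center_iff.1 he2.2 b⁻¹]
          group
        rw [h3]
        exact mul_mem (Subgroup.mem_sup_left he1) (Subgroup.mem_sup_right (mul_mem h2 he2))
      exact hgenx e he
    · intro e he e' he'
      obtain ⟨e1, he1, e2, he2, rfl⟩ := Subgroup.mem_sup_of_normal_right.1 he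
      obtain ⟨e1', he1', e2', he2', rfl⟩ := Subgroup.mem_sup_of_normal_right.1 he'
      rw [Subgroup.mem_closure_singleton] at he1 he1'
      obtain ⟨i, rfl⟩ := he1
      obtain ⟨i', rfl⟩ := he1'
      have hz : ∀ z ∈ Subgroup.center G, ∀ w : G, Commute z w := fun z hz w => (Subgroup.mem_center_iff.1 hz w).symm
      exact ((Commute.zpow_zpow_self x0 i i').mul_right (hz _ he2'.2 _).symm).mul_left (hz _ he2.2 _)
  have hmax : ∀ P : Subgroup U, C ≤ P → ∀ u ∈ P, u ∉ C → j = 1 → P = ⊤ := by
    rintro P hCP u hu huC rfl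
    have h := Subgroup.relIndex_mul_index hCP
    rw [hIj, pow_one] at h
    rcases (Nat.dvd_prime hq).1 (Dvd.intro_left _ h) with h1 | h1
    · exact Subgroup.index_eq_one.1 h1
    · rw [h1, Nat.mul_eq_right hq.ne_zero] at h
      exact absurd (Subgroup.relIndex_eq_one.1 h hu) huC
  have hj1 : j ≠ 1 := by
    intro hj
    obtain ⟨u0, hu0⟩ : ∃ u0, u0 ∉ C := by
      by_contra hh
      push_neg at hh
      have h1 : C.index = 1 := Subgroup.index_eq_one.2 (eq_top_iff.2 fun u _ => hh u)
      rw [hIj, hj, pow_one] at h1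
      exact hq.ne_one h1
    set w := act g u0 * u0⁻¹ with hw
    have hgu0 : act g u0 = w * u0 := by rw [hw, inv_mul_cancel_right]
    have hwC : w ∈ C := by
      by_contra hwC
      let P : Subgroup U :=
        { carrier := {v | χ w v = 1}
          one_mem' := (mul_eq_left₀ (hχ0 w 1)).1 (by rw [← hχr, mul_one])
          mul_mem' := fun {v v'} hv hv' => by
            show χ w (v * v') = 1
            rw [hχr, hv, hv', one_mul]
          inv_mem' := fun {v} hv => by
            have h1 : χ w 1 = 1 := (mul_eq_left₀ (hχ0 w 1)).1 (by rw [← hχr, mul_one])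
            have h2 := hχr w v v⁻¹
            rw [mul_inv_cancel, h1, hv, one_mul] at h2
            exact h2.symm }
      have hCP : C ≤ P := fun v hv => by
        have h1 := hχinv g u0 v
        rw [show act g v = v from hv, hgu0, hχl] at h1
        exact (mul_eq_right₀ (hχ0 u0 v)).1 h1
      have hwP : w ∈ P := by
        obtain ⟨y, hy⟩ := QuotientGroup.mk_surjective w
        show χ w w = 1
        rw [← hy, hχ, hc1]
      have hP := hmax P hCP w hwP hwC hj
      refine hwC ?_
      rw [(hχ1 w).1 fun v => (show v ∈ P by rw [hP]; trivial)]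
      exact C.one_mem
    have hgw : act g w = w := hwC
    have hrange : ∀ u, ∃ m : ℤ, act g u = w ^ m * u := by
      let P : Subgroup U :=
        { carrier := {u | ∃ m : ℤ, act g u = w ^ m * u}
          one_mem' := ⟨0, by rw [map_one, zpow_zero, one_mul]⟩
          mul_mem' := fun {u u'} ⟨m, hm⟩ ⟨m', hm'⟩ => ⟨m + m', by rw [map_mul, hm, hm', zpow_add, mul_mul_mul_comm]⟩
          inv_mem' := fun {u} ⟨m, hm⟩ => ⟨-m, by rw [map_inv, hm, mul_inv, zpow_neg]⟩ }
      have hP := hmax P (fun u (hu : act g u = u) => ⟨0, by rw [zpow_zero, one_mul]; exact hu⟩) u0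
        ⟨1, by rw [zpow_one]; exact hgu0⟩ hu0 hj
      intro u
      exact (show u ∈ P by rw [hP]; trivial)
    have hw1 : w ≠ 1 := fun h => hu0 (by show act g u0 = u0; rw [hgu0, h, one_mul])
    by_cases hqp : q = p
    · refine no_transvection_group (U := U) hp5 (fun u => by rw [← hqp]; exact hexp u) act hact1 hactm hgen ?_ w hw1 hgw
        ⟨u0, hu0⟩ hrange
      intro S hS
      let P : Subgroup G :=
        { carrier := {x | ∃ hx : x ∈ N, ((⟨x, hx⟩ : N) : U) ∈ S}
          one_mem' := ⟨N.one_mem, S.one_mem⟩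
          mul_mem' := fun {a b} ⟨ha, ha'⟩ ⟨hb, hb'⟩ => ⟨N.mul_mem ha hb, S.mul_mem ha' hb'⟩
          inv_mem' := fun {a} ⟨ha, ha'⟩ => ⟨N.inv_mem ha, S.inv_mem ha'⟩ }
      have hPn : P.Normal := ⟨fun x hxb b => by
        obtain ⟨hx, hx'⟩ := hxb
        refine ⟨hN.conj_mem x hx b, ?_⟩
        have := hS b _ hx'
        rw [hact] at this
        exact this⟩
      by_cases hle : P ≤ Subgroup.center G
      · left
        rw [Subgroup.eq_bot_iff_forall]
        intro u hu
        obtain ⟨x, rfl⟩ := QuotientGroup.mk_surjective u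
        exact (QuotientGroup.eq_one_iff x).2 (hle ⟨x.2, hu⟩)
      · right
        have hP := hNmin P hPn (fun x hx => hx.1) hle
        rw [eq_top_iff]
        intro u _
        obtain ⟨x, rfl⟩ := QuotientGroup.mk_surjective u
        obtain ⟨_, h⟩ : (x : G) ∈ P := by rw [hP]; exact x.2
        exact h
    · have hit : ∀ n : ℕ, act (g ^ n) u0 = w ^ n * u0 := by
        intro n
        induction n with
        | zero => rw [pow_zero, pow_zero, hact1, one_mul]
        | succ n ih => rw [pow_succ', hactm, ih, map_mul, map_pow, hgw, hgu0, ← mul_assoc, pow_succ]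
      have h1 := hit p
      rw [hg, hact1, right_eq_mul] at h1
      apply hw1
      rw [← orderOf_eq_one_iff]
      refine Nat.eq_one_of_dvd_coprimes ?_ (orderOf_dvd_of_pow_eq_one h1) (orderOf_dvd_of_pow_eq_one (hexp w))
      exact (Nat.coprime_primes hp hq).2 (Ne.symm hqp)
  have hmod : q = p ∨ q ^ j ≡ 1 [MOD p] := by
    by_cases hqp : q = p
    · exact Or.inl hqp
    refine Or.inr ?_
    obtain ⟨b, -, hb⟩ := (Nat.dvd_prime_pow hq).1 (show Nat.card C ∣ q ^ a by rw [← hcardU]; exact C.card_subgroup_dvd_card)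
    have h := card_modEq hp σ hσp
    rw [hFC, hU', hIj, hb] at h
    refine Nat.ModEq.cancel_left_of_coprime (c := q ^ b) ?_ (by rwa [mul_one])
    exact Nat.Coprime.pow_right b ((Nat.coprime_primes hp hq).2 (Ne.symm hqp))
  have hnum := index_bound hp hp5 hq (show 2 ≤ j by omega) hmod
  have hlow := sq_fixed_lt (ρ g) (ρ g⁻¹) (hρi g).2
    (fun h => hgc (by rw [show g = 1 from hinj (h.trans (map_one ρ).symm)]; exact Subgroup.one_mem _))
    (Tc g) (hTc g)
  rw [hFC, hU', hIj] at hfix
  rw [hU', hIj] at hnn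
  set f' := finrank K (LinearMap.ker (ρ g - 1))
  set n' := finrank K V
  set F := Nat.card C
  set d := finrank K (W 1)
  have h4 : 4 * (p * (f' * f' + 1)) ≤ p * (n' * n') := calc
    4 * (p * (f' * f' + 1)) ≤ 4 * ((F * q ^ j + (p - 1) * F) * d) :=
      Nat.mul_le_mul_left _ (le_trans (Nat.mul_le_mul_left _ hlow) hfix)
    _ = 4 * (q ^ j + (p - 1)) * (F * d) := by ring
    _ ≤ p * q ^ j * (F * d) := Nat.mul_le_mul_right _ hnum
    _ = p * (n' * n') := by rw [hnn]; ring
  have h5 : 4 * (f' * f' + 1) ≤ n' * n' := Nat.le_of_mul_le_mul_left (by linarith) hp.pos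
  by_contra hle
  push_neg at hle
  have := Nat.mul_le_mul hle hle
  linarith

end CfsgLib.FixedHalf
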