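import Mathlib.LinearAlgebra.Eigenspace.Triangularizable
import Mathlib.LinearAlgebra.Eigenspace.Pi
import Mathlib.LinearAlgebra.FiniteDimensional.Lemmas
import Mathlib.FieldTheory.IsAlgClosed.Basic

/-!
Common eigenvectors of commuting families.
-/

set_option autoImplicit false

namespace CfsgLib.FixedHalf

open Module

variable {K V : Type*} [Field K] [AddCommGroup V] [Module K V]

/-- A commuting family has a common eigenvector as soon as each member has one in each common invariant
subspace. -/
theorem exists_common {α : Type*} [Finite α] (f : α → Module.End K V) (hc : ∀ a b, Commute (f a) (f b))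
    [Nontrivial V] (P : α → K → Prop)
    (hex : ∀ a, ∀ W : Submodule K V, W ≠ ⊥ → (∀ b, ∀ w ∈ W, f b w ∈ W) →
      ∃ c : K, P a c ∧ ∃ w ∈ W, w ≠ 0 ∧ f a w = c • w) :
    ∃ v : V, v ≠ 0 ∧ ∀ a, ∃ c : K, P a c ∧ f a v = c • v := by
  classical
  haveI := Fintype.ofFinite α
  have key : ∀ s : Finset α, ∃ W : Submodule K V, W ≠ ⊥ ∧ (∀ b, ∀ w ∈ W, f b w ∈ W) ∧
      ∀ a ∈ s, ∃ c : K, P a c ∧ ∀ w ∈ W, f a w = c • w := by
    intro s
    induction s using Finset.induction_on with
    | empty => exact ⟨⊤, top_ne_bot, fun b w _ => trivial, by simp⟩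
    | insert a s has ih =>
      obtain ⟨W, hW, hinv, hs⟩ := ih
      obtain ⟨c, hPc, w, hw, hw0, hwc⟩ := hex a W hW hinv
      refine ⟨W ⊓ Module.End.eigenspace (f a) c, ?_, ?_, ?_⟩
      · intro h
        apply hw0
        rw [← Submodule.mem_bot K, ← h]
        exact ⟨hw, Module.End.mem_eigenspace_iff.2 hwc⟩
      · intro b v hv
        refine ⟨hinv b v hv.1, Module.End.mem_eigenspace_iff.2 ?_⟩
        rw [← Module.End.mul_apply, (hc a b).eq, Module.End.mul_apply, Module.End.mem_eigenspace_iff.1 hv.2, map_smul]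
      · intro a' ha'
        rcases Finset.mem_insert.1 ha' with rfl | ha''
        · exact ⟨c, hPc, fun v hv => Module.End.mem_eigenspace_iff.1 hv.2⟩
        · obtain ⟨c', hc', hW'⟩ := hs a' ha''
          exact ⟨c', hc', fun v hv => hW' v hv.1⟩
  obtain ⟨W, hW, -, hs⟩ := key Finset.univ
  obtain ⟨v, hv, hv0⟩ := Submodule.exists_mem_ne_zero_of_ne_bot hW
  refine ⟨v, hv0, fun a => ?_⟩
  obtain ⟨c, hc1, hc2⟩ := hs a (Finset.mem_univ a)
  exact ⟨c, hc1, hc2 v hv⟩

/-- Commuting maps over an algebraically closed field have a common eigenvector. -/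
theorem exists_common_eigen [IsAlgClosed K] [FiniteDimensional K V] [Nontrivial V] {α : Type*} [Finite α]
    (f : α → Module.End K V) (hc : ∀ a b, Commute (f a) (f b)) :
    ∃ v : V, v ≠ 0 ∧ ∀ a, ∃ c : K, f a v = c • v := by
  obtain ⟨v, hv, h⟩ := exists_common f hc (fun _ _ => True) (fun a W hW hinv => by
    haveI : Nontrivial W := Submodule.nontrivial_iff_ne_bot.2 hW
    obtain ⟨c, hc⟩ := Module.End.exists_eigenvalue ((f a).restrict (hinv a))
    obtain ⟨w, hw, hw0⟩ := Submodule.exists_mem_ne_zero_of_ne_bot hc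
    exact ⟨c, trivial, w, w.2, fun h => hw0 (Subtype.ext h),
      congrArg Subtype.val (Module.End.mem_eigenspace_iff.1 hw)⟩)
  exact ⟨v, hv, fun a => ⟨_, (h a).choose_spec.2⟩⟩

/-- Commuting unipotent maps fix a common vector. -/
theorem exists_common_fixed [Nontrivial V] {α : Type*} [Finite α] (f : α → Module.End K V)
    (hc : ∀ a b, Commute (f a) (f b)) (N : ℕ) (hu : ∀ a, (f a - 1) ^ N = 0) :
    ∃ v : V, v ≠ 0 ∧ ∀ a, f a v = v := by
  classical
  obtain ⟨v, hv, h⟩ := exists_common f hc (fun _ c => c = 1) (fun a W hW hinv => by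
    obtain ⟨w0, hw0, hne⟩ := Submodule.exists_mem_ne_zero_of_ne_bot hW
    set T := f a - 1 with hT
    have hex : ∃ n, (T ^ n) w0 = 0 := ⟨N, by rw [hu]; rfl⟩
    set n := Nat.find hex with hn
    have hn0 : n ≠ 0 := fun h => hne (by
      have := Nat.find_spec hex
      rwa [← hn, h, pow_zero] at this)
    obtain ⟨m, hm⟩ := Nat.exists_eq_succ_of_ne_zero hn0
    have hW' : ∀ i, (T ^ i) w0 ∈ W := by
      intro i
      induction i with
      | zero => simpa using hw0
      | succ i ih =>
        rw [pow_succ', Module.End.mul_apply, hT, LinearMap.sub_apply]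
        exact W.sub_mem (hinv a _ ih) ih
    refine ⟨1, rfl, (T ^ m) w0, hW' m, Nat.find_min hex (by omega), ?_⟩
    have h1 := Nat.find_spec hex
    rw [← hn, hm, pow_succ', Module.End.mul_apply, hT, LinearMap.sub_apply, sub_eq_zero] at h1
    rw [one_smul]
    exact h1)
  refine ⟨v, hv, fun a => ?_⟩
  obtain ⟨c, rfl, hc'⟩ := h a
  rw [hc', one_smul]

/-- The common eigenspace of a family for a given system of eigenvalues. -/
def eigen {α : Type*} (f : α → Module.End K V) (χ : α → K) : Submodule K V :=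
  ⨅ a, Module.End.eigenspace (f a) (χ a)

theorem mem_eigen {α : Type*} {f : α → Module.End K V} {χ : α → K} {v : V} :
    v ∈ eigen f χ ↔ ∀ a, f a v = χ a • v := by
  simp [eigen]

/-- Common eigenspaces of different systems are independent. -/
theorem eigen_indep {α ι : Type*} (f : α → Module.End K V) (hc : ∀ a b, Commute (f a) (f b)) (χ : ι → α → K)
    (hinj : Function.Injective χ) : iSupIndep fun i => eigen f (χ i) := by
  have h := Module.End.independent_iInf_maxGenEigenspace_of_forall_mapsTo f
    (fun i j φ => Module.End.mapsTo_maxGenEigenspace_of_comm (hc j i) φ)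
  exact (h.comp hinj).mono fun i => iInf_mono fun a => Module.End.eigenspace_le_maxGenEigenspace

end CfsgLib.FixedHalf
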