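import Cfsg.Agent.FixedHalf.Central
import Mathlib.RepresentationTheory.Irreducible
import Mathlib.RingTheory.Flat.Basic
import Mathlib.FieldTheory.IsAlgClosed.AlgebraicClosure

/-!
An element of prime order at least five generating a solvable linear group normally fixes less than half of an
irreducible module.
-/

set_option autoImplicit false

open scoped commutatorElement TensorProduct

namespace CfsgLib.FixedHalf

open Module

variable {G : Type*} [Group G] [Finite G] [Group.IsSolvable G]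
variable {K : Type*} [Field K] [IsAlgClosed K]
variable {p : ℕ} [hpf : Fact p.Prime]

section irreducible

variable {V : Type*} [AddCommGroup V] [Module K V] [FiniteDimensional K V] [Nontrivial V]
  (ρ : G →* Module.End K V)

/-- The bound when some abelian normal subgroup is not central. -/
theorem fixed_half_monomial (hscal : ∀ z, z ∈ Subgroup.center G ↔ ∃ c : K, ρ z = c • 1)
    (hirr : ∀ W : Submodule K V, (∀ h : G, ∀ w ∈ W, ρ h w ∈ W) → W = ⊥ ∨ W = ⊤)
    (hp5 : 5 ≤ p) {g : G} (hg : g ^ p = 1) (hgen : ∀ H : Subgroup G, H.Normal → g ∈ H → H = ⊤)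
    (A : Subgroup G) [hA : A.Normal] (hAc : ∀ a ∈ A, ∀ b ∈ A, Commute a b) (hA' : ¬ A ≤ Subgroup.center G) :
    2 * finrank K (LinearMap.ker (ρ g - 1)) < finrank K V := by
  classical
  have hp := hpf.out
  let f : A → Module.End K V := fun a => ρ a
  have hfc : ∀ a b, Commute (f a) (f b) := fun a b => (hAc a a.2 b b.2).map ρ
  obtain ⟨v, hv0, hv⟩ := exists_common_eigen f hfc
  choose χ0 hχ0 using hv
  let H : Subgroup G :=
    { carrier := {h | ∀ a : A, χ0 (MulAut.conjNormal h a) = χ0 a}
      one_mem' := fun a => by rw [map_one]; rfl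
      mul_mem' := fun {x y} hx hy a => by rw [map_mul, MulAut.mul_apply, hx, hy]
      inv_mem' := fun {x} hx a => by
        conv_rhs => rw [← MulAut.apply_inv_self A (MulAut.conjNormal x) a]
        rw [hx, map_inv] }
  have hHmem : ∀ h, h ∈ H ↔ ∀ a : A, χ0 (MulAut.conjNormal h a) = χ0 a := fun h => Iff.rfl
  let χ : G ⧸ H → A → K := Quotient.lift (fun (h : G) (a : A) => χ0 (MulAut.conjNormal h⁻¹ a)) (fun h h' hh => by
    funext a
    have h1 := H.inv_mem (QuotientGroup.leftRel_apply.1 hh)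
    rw [_root_.mul_inv_rev, inv_inv] at h1
    have h2 := (hHmem _).1 h1 (MulAut.conjNormal h⁻¹ a)
    rw [← MulAut.mul_apply, ← map_mul, mul_assoc, mul_inv_cancel, mul_one] at h2
    exact h2.symm)
  have hχmk : ∀ (h : G) a, χ (h : G ⧸ H) a = χ0 (MulAut.conjNormal h⁻¹ a) := fun h a => rfl
  have hinj : Function.Injective χ := by
    intro x y hxy
    obtain ⟨h, rfl⟩ := QuotientGroup.mk_surjective x
    obtain ⟨h', rfl⟩ := QuotientGroup.mk_surjective y
    refine QuotientGroup.eq.2 ?_
    have h1 : h'⁻¹ * h ∈ H := fun a => by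
      have h2 := congrFun hxy (MulAut.conjNormal h a)
      rw [hχmk, hχmk, ← MulAut.mul_apply, ← map_mul, inv_mul_cancel, map_one, ← MulAut.mul_apply, ← map_mul] at h2
      exact h2.symm
    have h3 := H.inv_mem h1
    rwa [_root_.mul_inv_rev, inv_inv] at h3
  let W : G ⧸ H → Submodule K V := fun x => eigen f (χ x)
  have hact : ∀ (h : G) (x : G ⧸ H), ∀ w ∈ W x, ρ h w ∈ W (h • x) := by
    intro h x w hw
    obtain ⟨y, rfl⟩ := QuotientGroup.mk_surjective x
    rw [mem_eigen] at hw ⊢
    intro a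
    have h1 := hw (MulAut.conjNormal h⁻¹ a)
    show ρ (a : G) (ρ h w) = χ (((h * y : G)) : G ⧸ H) a • ρ h w
    rw [hχmk] at h1 ⊢
    rw [show MulAut.conjNormal (h * y)⁻¹ a = MulAut.conjNormal y⁻¹ (MulAut.conjNormal h⁻¹ a) by
      rw [_root_.mul_inv_rev, map_mul, MulAut.mul_apply], ← map_smul, ← h1]
    show (ρ (a : G) * ρ h) w = (ρ h * ρ ((MulAut.conjNormal h⁻¹ a : A) : G)) w
    rw [← map_mul, ← map_mul, MulAut.conjNormal_apply]
    congr 2; group
  have hvW : v ∈ W ((1 : G) : G ⧸ H) := by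
    rw [mem_eigen]
    intro a
    rw [hχmk, inv_one, map_one]
    exact hχ0 a
  have htop : ⨆ x, W x = ⊤ := by
    refine (hirr _ fun h w hw => ?_).resolve_left fun h0 => hv0 ?_
    · have : Submodule.map (ρ h) (⨆ x, W x) ≤ ⨆ x, W x := by
        rw [Submodule.map_iSup]
        refine iSup_le fun x => ?_
        rintro _ ⟨u, hu, rfl⟩
        exact Submodule.mem_iSup_of_mem (h • x) (hact h x u hu)
      exact this (Submodule.mem_map_of_mem hw)
    · rw [← Submodule.mem_bot K, ← h0]
      exact Submodule.mem_iSup_of_mem _ hvW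
  have hHne : H ≠ ⊤ := by
    intro hH
    apply hA'
    have hall : ∀ x, W x = W ((1 : G) : G ⧸ H) := fun x => by
      obtain ⟨y, rfl⟩ := QuotientGroup.mk_surjective x
      rw [show (y : G ⧸ H) = ((1 : G) : G ⧸ H) from QuotientGroup.eq.2 (by rw [hH]; trivial)]
    have h1 : W ((1 : G) : G ⧸ H) = ⊤ := by rw [← htop]; exact le_antisymm (le_iSup W _) (iSup_le fun x => (hall x).le)
    intro a ha
    refine (hscal a).2 ⟨χ ((1 : G) : G ⧸ H) ⟨a, ha⟩, LinearMap.ext fun w => ?_⟩
    exact mem_eigen.1 (show w ∈ W ((1 : G) : G ⧸ H) by rw [h1]; trivial) ⟨a, ha⟩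
  have hind : iSupIndep W := eigen_indep f hfc χ hinj
  have hρinj : ∀ h, Function.Injective (ρ h) := fun h u w huw => by
    have := congrArg (ρ h⁻¹) huw
    rwa [← Module.End.mul_apply, ← Module.End.mul_apply, ← map_mul, inv_mul_cancel, map_one] at this
  have hle : ∀ (h : G) x, finrank K (W x) ≤ finrank K (W (h • x)) := fun h x =>
    LinearMap.finrank_le_finrank_of_injective (f := (ρ h).restrict (p := W x) (q := W (h • x)) (hact h x))
      (fun a b hab => Subtype.ext (hρinj h (congrArg Subtype.val hab)))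
  have hd : ∀ x, finrank K (W x) = finrank K (W ((1 : G) : G ⧸ H)) := fun x => by
    obtain ⟨y, rfl⟩ := QuotientGroup.mk_surjective x
    apply le_antisymm
    · have := hle y⁻¹ (y : G ⧸ H)
      rwa [show y⁻¹ • (y : G ⧸ H) = ((1 : G) : G ⧸ H) by
        show ((y⁻¹ * y : G) : G ⧸ H) = _; rw [inv_mul_cancel]] at this
    · have := hle y ((1 : G) : G ⧸ H)
      rwa [show y • ((1 : G) : G ⧸ H) = (y : G ⧸ H) by show ((y * 1 : G) : G ⧸ H) = _; rw [mul_one]] at this
  have hσ : (MulAction.toPermHom G (G ⧸ H) g) ^ p = 1 := by rw [← map_pow, hg, map_one]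
  obtain ⟨hfix, hn⟩ := fixed_le hp W hind htop _ hd (MulAction.toPermHom G (G ⧸ H) g) hσ (ρ g) (hact g)
  have h3 : 3 * Nat.card {x : G ⧸ H // (MulAction.toPermHom G (G ⧸ H) g) x = x} ≤ Nat.card (G ⧸ H) :=
    fixed_coset_le hp (by omega) hg hgen H hHne
  have hpos : 0 < finrank K V := Module.finrank_pos
  set F := Nat.card {x : G ⧸ H // (MulAction.toPermHom G (G ⧸ H) g) x = x}
  set O := Nat.card (G ⧸ H)
  set d := finrank K (W ((1 : G) : G ⧸ H))
  set n := finrank K V
  set f' := finrank K (LinearMap.ker (ρ g - 1))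
  have h6 : 3 * (p * f') ≤ (p + 2) * n := calc
    3 * (p * f') ≤ 3 * ((O + (p - 1) * F) * d) := Nat.mul_le_mul_left _ hfix
    _ = (3 * O + (p - 1) * (3 * F)) * d := by ring
    _ ≤ (3 * O + (p - 1) * O) * d := by gcongr
    _ = (p + 2) * n := by
      rw [hn, ← add_mul, show 3 + (p - 1) = p + 2 by omega, mul_assoc]
  by_contra hcon
  push_neg at hcon
  nlinarith

/-- The bound for an irreducible module over an algebraically closed field. -/
theorem fixed_half_irreducible {ℓ : ℕ} [Fact ℓ.Prime] [CharP K ℓ] (hinj : Function.Injective ρ)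
    (hirr : ∀ W : Submodule K V, (∀ h : G, ∀ w ∈ W, ρ h w ∈ W) → W = ⊥ ∨ W = ⊤)
    (hp5 : 5 ≤ p) {g : G} (hg : g ^ p = 1) (hg1 : g ≠ 1) (hgen : ∀ H : Subgroup G, H.Normal → g ∈ H → H = ⊤) :
    2 * finrank K (LinearMap.ker (ρ g - 1)) < finrank K V := by
  classical
  have hscal : ∀ z, z ∈ Subgroup.center G ↔ ∃ c : K, ρ z = c • 1 := by
    intro z
    constructor
    · intro hz
      obtain ⟨c, hc⟩ := Module.End.exists_eigenvalue (ρ z)
      refine ⟨c, LinearMap.ext fun w => ?_⟩
      have h1 : Module.End.eigenspace (ρ z) c = ⊤ := by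
        refine (hirr _ fun h u hu => ?_).resolve_left hc
        rw [Module.End.mem_eigenspace_iff] at hu ⊢
        rw [← Module.End.mul_apply, ← map_mul, ← Subgroup.mem_center_iff.1 hz h, map_mul, Module.End.mul_apply,
          hu, map_smul]
      exact Module.End.mem_eigenspace_iff.1 (show w ∈ Module.End.eigenspace (ρ z) c by rw [h1]; trivial)
    · rintro ⟨c, hc⟩
      refine Subgroup.mem_center_iff.2 fun h => hinj ?_
      rw [map_mul, map_mul, hc, mul_smul_comm, smul_mul_assoc, mul_one, one_mul]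
  by_cases hgc : g ∈ Subgroup.center G
  · obtain ⟨c, hc⟩ := (hscal g).1 hgc
    have hc1 : c ≠ 1 := fun h => hg1 (hinj (by rw [hc, h, one_smul, map_one]))
    have : LinearMap.ker (ρ g - 1) = ⊥ := by
      rw [Submodule.eq_bot_iff]
      intro w hw
      rw [LinearMap.mem_ker, LinearMap.sub_apply, hc, LinearMap.smul_apply, Module.End.one_apply, sub_eq_zero] at hw
      have h2 : (c - 1) • w = 0 := by rw [sub_smul, one_smul, hw, sub_self]
      exact (smul_eq_zero.1 h2).resolve_left (sub_ne_zero.2 hc1)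
    rw [this, finrank_bot, mul_zero]
    exact Module.finrank_pos
  by_cases habel : ∀ A : Subgroup G, A.Normal → (∀ a ∈ A, ∀ b ∈ A, Commute a b) → A ≤ Subgroup.center G
  · exact fixed_half_central (ℓ := ℓ) ρ hinj hscal habel hp5 hg hgc hgen
  · push_neg at habel
    obtain ⟨A, hA, hAc, hA'⟩ := habel
    exact fixed_half_monomial ρ hscal hirr hp5 hg hgen A hAc hA'

end irreducible

/-- Each nontrivial normal subgroup has a subset of invertible size summing to zero. -/
def HasZeroSums {V : Type*} [AddCommGroup V] [Module K V] (ρ : G →* Module.End K V) : Prop :=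
  ∀ N : Subgroup G, N.Normal → N ≠ ⊥ → ∃ s : Finset G, (∀ m ∈ s, m ∈ N) ∧ (s.card : K) ≠ 0 ∧ ∑ m ∈ s, ρ m = 0

theorem fixed_half_aux {ℓ : ℕ} [Fact ℓ.Prime] [CharP K ℓ] (hp5 : 5 ≤ p) {g : G} (hg : g ^ p = 1) (hg1 : g ≠ 1)
    (hgen : ∀ H : Subgroup G, H.Normal → g ∈ H → H = ⊤) :
    ∀ (n : ℕ) {V : Type*} [AddCommGroup V] [Module K V] [FiniteDimensional K V] (ρ : G →* Module.End K V),
      HasZeroSums ρ → finrank K V = n → 0 < n → 2 * finrank K (LinearMap.ker (ρ g - 1)) < n := by
  intro n
  induction n using Nat.strong_induction_on with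
  | _ n ih =>
  intro V _ _ _ ρ hzs hn hn0
  classical
  haveI : Nontrivial V := Module.nontrivial_of_finrank_pos (R := K) (hn ▸ hn0)
  by_cases hirr : ∀ W : Submodule K V, (∀ h : G, ∀ w ∈ W, ρ h w ∈ W) → W = ⊥ ∨ W = ⊤
  · rw [← hn]
    refine fixed_half_irreducible (ℓ := ℓ) ρ ?_ hirr hp5 hg hg1 hgen
    rw [← MonoidHom.ker_eq_bot_iff]
    by_contra hne
    obtain ⟨s, hs, hs0, hsum⟩ := hzs _ inferInstance hne
    rw [Finset.sum_congr rfl (fun m hm => MonoidHom.mem_ker.1 (hs m hm)), Finset.sum_const] at hsum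
    obtain ⟨v, hv⟩ := exists_ne (0 : V)
    have h1 := LinearMap.congr_fun hsum v
    rw [LinearMap.smul_apply, Module.End.one_apply, LinearMap.zero_apply, ← Nat.cast_smul_eq_nsmul K, smul_eq_zero] at h1
    exact h1.elim hs0 hv
  · push_neg at hirr
    obtain ⟨W, hW, hW0, hW1⟩ := hirr
    let ρW : G →* Module.End K W :=
      { toFun := fun h => (ρ h).restrict (hW h)
        map_one' := LinearMap.ext fun w => Subtype.ext (by
          show ρ 1 (w : V) = w
          rw [map_one]; rfl)
        map_mul' := fun a b => LinearMap.ext fun w => Subtype.ext (by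
          show ρ (a * b) (w : V) = ρ a (ρ b w)
          rw [map_mul]; rfl) }
    let ρQ : G →* Module.End K (V ⧸ W) :=
      { toFun := fun h => W.mapQ W (ρ h) (fun w hw => hW h w hw)
        map_one' := Submodule.linearMap_qext _ (LinearMap.ext fun w => by
          show Submodule.Quotient.mk (ρ 1 w) = Submodule.Quotient.mk w
          rw [map_one]; rfl)
        map_mul' := fun a b => Submodule.linearMap_qext _ (LinearMap.ext fun w => by
          show Submodule.Quotient.mk (ρ (a * b) w) = Submodule.Quotient.mk (ρ a (ρ b w))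
          rw [map_mul]; rfl) }
    have hzW : HasZeroSums ρW := fun N hN hne => by
      obtain ⟨s, hs, hs0, hsum⟩ := hzs N hN hne
      refine ⟨s, hs, hs0, LinearMap.ext fun w => Subtype.ext ?_⟩
      have h1 := LinearMap.congr_fun hsum (w : V)
      rw [LinearMap.sum_apply] at h1 ⊢
      rw [Submodule.coe_sum]
      exact h1
    have hzQ : HasZeroSums ρQ := fun N hN hne => by
      obtain ⟨s, hs, hs0, hsum⟩ := hzs N hN hne
      refine ⟨s, hs, hs0, Submodule.linearMap_qext _ (LinearMap.ext fun w => ?_)⟩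
      rw [LinearMap.comp_apply, LinearMap.sum_apply]
      show ∑ m ∈ s, W.mkQ (ρ m w) = W.mkQ 0
      rw [← map_sum, ← LinearMap.sum_apply, hsum]; rfl
    have e1 := W.finrank_quotient_add_finrank
    have hWpos : 0 < finrank K W := Submodule.one_le_finrank_iff.2 hW0
    have hWlt : finrank K W < n := hn ▸ Submodule.finrank_lt hW1
    have i1 := ih _ hWlt ρW hzW rfl hWpos
    have i2 := ih (finrank K (V ⧸ W)) (by omega) ρQ hzQ rfl (by omega)
    set F := LinearMap.ker (ρ g - 1)
    let Φ : F →ₗ[K] (V ⧸ W) := W.mkQ ∘ₗ F.subtype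
    have e2 := Φ.finrank_range_add_finrank_ker
    have h1 : finrank K (LinearMap.range Φ) ≤ finrank K (LinearMap.ker (ρQ g - 1)) := by
      apply Submodule.finrank_mono
      rintro _ ⟨u, rfl⟩
      rw [LinearMap.mem_ker, LinearMap.sub_apply, Module.End.one_apply, sub_eq_zero]
      show W.mkQ (ρ g u) = W.mkQ u
      rw [sub_eq_zero.1 (show ρ g (u : V) - u = 0 from u.2)]
    have hker : ∀ u : LinearMap.ker Φ, ((u : F) : V) ∈ W := fun u => (Submodule.Quotient.mk_eq_zero W).1 u.2
    let Ψ : LinearMap.ker Φ →ₗ[K] LinearMap.ker (ρW g - 1) :=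
      { toFun := fun u => ⟨⟨((u : F) : V), hker u⟩, Subtype.ext (by exact (u : F).2)⟩
        map_add' := fun _ _ => rfl
        map_smul' := fun _ _ => rfl }
    have h2 : finrank K (LinearMap.ker Φ) ≤ finrank K (LinearMap.ker (ρW g - 1)) :=
      LinearMap.finrank_le_finrank_of_injective (f := Ψ) (fun a b h => Subtype.ext (Subtype.ext
        (congrArg (fun z : LinearMap.ker (ρW g - 1) => ((z : W) : V)) h)))
    omega

end CfsgLib.FixedHalf
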