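import Mathlib.GroupTheory.Solvable
import Mathlib.GroupTheory.Index
import Mathlib.GroupTheory.Commutator.Basic
import Mathlib.GroupTheory.Coset.Card
import Mathlib.GroupTheory.GroupAction.Quotient
import Mathlib.GroupTheory.QuotientGroup.Basic
import Mathlib.Order.Atoms.Finite
import Mathlib.GroupTheory.Sylow
import Mathlib.Data.Fintype.Order
import Mathlib.Tactic

/-!
An element of odd prime order generating a solvable group normally fixes at most a third of the cosets of a
proper subgroup.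
-/

set_option autoImplicit false

open scoped commutatorElement

namespace CfsgLib.FixedHalf

/-- A normal subgroup minimal among those strictly above `C`. -/
theorem exists_min_above {G : Type*} [Group G] [Finite G] (P : Subgroup G → Prop) (h : P ⊤) :
    ∃ N : Subgroup G, N.Normal ∧ P N ∧ ∀ K : Subgroup G, K.Normal → K ≤ N → P K → K = N := by
  obtain ⟨N, ⟨hN, hP⟩, hmin⟩ := (Set.toFinite {K : Subgroup G | K.Normal ∧ P K}).exists_minimal
    ⟨⊤, inferInstance, h⟩
  exact ⟨N, hN, hP, fun K hK hle hPK => le_antisymm hle (hmin ⟨hK, hPK⟩ hle)⟩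

variable {G : Type*} [Group G] [Finite G] [Group.IsSolvable G]

/-- The bound for a maximal subgroup. -/
theorem fixed_max_le {p : ℕ} (hp : p.Prime) (hp2 : p ≠ 2) {g : G} (hg : g ^ p = 1)
    (hgen : ∀ H : Subgroup G, H.Normal → g ∈ H → H = ⊤) (M : Subgroup G) (hM : IsCoatom M) :
    3 * Nat.card {x : G ⧸ M // g • x = x} ≤ Nat.card (G ⧸ M) := by
  classical
  rcases isEmpty_or_nonempty {x : G ⧸ M // g • x = x} with he | hne
  · simp
  obtain ⟨⟨x0, hx0⟩⟩ := hne
  obtain ⟨r, rfl⟩ := QuotientGroup.mk_surjective x0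
  set C := M.normalCore with hC
  haveI hCn : C.Normal := M.normalCore_normal
  have hCM : C ≤ M := M.normalCore_le
  obtain ⟨N, hN, ⟨hCN, hNM⟩, hmin⟩ := exists_min_above (fun K : Subgroup G => C ≤ K ∧ ¬ K ≤ M)
    ⟨le_top, fun h => hM.1 (top_le_iff.1 h)⟩
  have hKC : ∀ K : Subgroup G, K.Normal → K ≤ M → K ≤ C := fun K hK hle => by
    haveI := hK
    exact Subgroup.normal_le_normalCore.2 hle
  have htop : N ⊔ M = ⊤ := hM.2 _ (lt_of_le_of_ne le_sup_right fun h => hNM (h ▸ le_sup_left))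
  -- the section is commutative
  have hcomm : ⁅N, N⁆ ≤ C := by
    haveI := hN
    set K := ⁅N, N⁆ ⊔ C with hK
    have hKN : K ≤ N := sup_le (Subgroup.commutator_le_self N) hCN
    rcases Classical.em (K ≤ M) with h | h
    · exact le_sup_left.trans (hKC K inferInstance h)
    exfalso
    have hKeq : K = N := hmin K inferInstance hKN ⟨le_sup_right, h⟩
    haveI : Group.IsSolvable (G ⧸ C) :=
      Group.isSolvable_of_surjective (f := QuotientGroup.mk' C) (QuotientGroup.mk'_surjective C)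
    set Nb := N.map (QuotientGroup.mk' C) with hNb
    have hNb0 : Nb ≠ ⊥ := by
      intro h0
      apply hNM
      rw [hNb, Subgroup.map_eq_bot_iff, QuotientGroup.ker_mk'] at h0
      exact h0.trans hCM
    have h2 : Nb = ⁅Nb, Nb⁆ := by
      conv_lhs => rw [hNb, ← hKeq, hK, Subgroup.map_sup]
      rw [Subgroup.map_commutator, ← hNb, QuotientGroup.map_mk'_self, sup_bot_eq]
    exact (Group.IsSolvable.commutator_lt_of_ne_bot hNb0).ne h2.symm
  -- the intersection
  have hinf : N ⊓ M ≤ C := by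
    haveI := hN
    refine hKC _ ⟨fun a ha b => ?_⟩ inf_le_right
    obtain ⟨n, hn, m, hm, rfl⟩ := Subgroup.mem_sup_of_normal_left.1 (show b ∈ N ⊔ M by rw [htop]; trivial)
    have h1 : m * a * m⁻¹ ∈ N ⊓ M := ⟨hN.conj_mem a ha.1 m, M.mul_mem (M.mul_mem hm ha.2) (M.inv_mem hm)⟩
    have h2 : ⁅n, m * a * m⁻¹⁆ ∈ C := hcomm (Subgroup.commutator_mem_commutator hn h1.1)
    have h3 : n * m * a * (n * m)⁻¹ = ⁅n, m * a * m⁻¹⁆ * (m * a * m⁻¹) := by rw [commutatorElement_def]; group
    rw [h3]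
    exact mul_mem (Subgroup.mem_inf.2 ⟨hCN h2, hCM h2⟩) h1
  set g' := r⁻¹ * g * r with hg'
  have hg'M : g' ∈ M := by
    have h1 : (g * r)⁻¹ * r ∈ M := QuotientGroup.eq.1 hx0
    have h2 := inv_mem h1
    rwa [show ((g * r)⁻¹ * r)⁻¹ = g' by rw [hg']; group] at h2
  have hg'p : g' ^ p = 1 := by
    have := map_pow (MulAut.conj r⁻¹).toMonoidHom g p
    simp only [MulEquiv.coe_toMonoidHom, MulAut.conj_apply, inv_inv, hg, mul_one, inv_mul_cancel] at this
    exact this.symm
  haveI := hN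
  set C' := C.subgroupOf N with hC'
  haveI : C'.Normal := inferInstance
  let c : N →* N := (MulAut.conjNormal g' : MulAut N).toMonoidHom
  let α : N ⧸ C' →* N ⧸ C' := QuotientGroup.map C' C' c (fun m hm => by
    simp only [Subgroup.mem_comap, hC', Subgroup.mem_subgroupOf] at hm ⊢
    exact hCn.conj_mem _ hm g')
  have hα : ∀ m : N, α m = ((c m : N) : N ⧸ C') := fun m => rfl
  have hcv : ∀ m : N, (c m : G) = g' * m * g'⁻¹ := fun m => MulAut.conjNormal_apply g' m
  have hαk : ∀ (k : ℕ) (m : N), α^[k] (m : N ⧸ C') = ((MulAut.conjNormal (g' ^ k) m : N) : N ⧸ C') := by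
    intro k
    induction k with
    | zero => intro m; simp
    | succ k ih =>
      intro m
      rw [Function.iterate_succ_apply', ih, hα, pow_succ' g' k, map_mul, MulAut.mul_apply]
      rfl
  have hαp : ∀ u, α^[p] u = u := by
    intro u
    obtain ⟨m, rfl⟩ := QuotientGroup.mk_surjective u
    rw [hαk, hg'p, map_one]
    rfl
  have hQc : ∀ u v : N ⧸ C', u * v = v * u := by
    intro u v
    obtain ⟨a, rfl⟩ := QuotientGroup.mk_surjective u
    obtain ⟨b, rfl⟩ := QuotientGroup.mk_surjective v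
    rw [← QuotientGroup.mk_mul, ← QuotientGroup.mk_mul, QuotientGroup.eq, hC', Subgroup.mem_subgroupOf]
    push_cast
    rw [show ((a : G) * b)⁻¹ * (b * a) = ⁅(b : G)⁻¹, (a : G)⁻¹⁆ by rw [commutatorElement_def]; group]
    exact hcomm (Subgroup.commutator_mem_commutator (inv_mem b.2) (inv_mem a.2))
  let E : N ⧸ C' → G ⧸ M := Quotient.lift (fun m : N => ((r * m : G) : G ⧸ M)) (fun a b hab => by
    have h1 := QuotientGroup.leftRel_apply.1 hab
    rw [hC', Subgroup.mem_subgroupOf] at h1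
    refine QuotientGroup.eq.2 ?_
    have h2 := hCM h1
    push_cast at h2
    rwa [show (r * (a : G))⁻¹ * (r * b) = (a : G)⁻¹ * b by group])
  have hEbij : Function.Bijective E := by
    constructor
    · intro u v huv
      obtain ⟨a, rfl⟩ := QuotientGroup.mk_surjective u
      obtain ⟨b, rfl⟩ := QuotientGroup.mk_surjective v
      have h1 : (r * (a : G))⁻¹ * (r * b) ∈ M := QuotientGroup.eq.1 huv
      rw [show (r * (a : G))⁻¹ * (r * b) = (a : G)⁻¹ * b by group] at h1
      rw [QuotientGroup.eq, hC', Subgroup.mem_subgroupOf]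
      push_cast
      exact hinf ⟨N.mul_mem (N.inv_mem a.2) b.2, h1⟩
    · intro x
      obtain ⟨z, rfl⟩ := QuotientGroup.mk_surjective x
      obtain ⟨n, hn, m, hm, hnm⟩ := Subgroup.mem_sup_of_normal_left.1 (show r⁻¹ * z ∈ N ⊔ M by rw [htop]; trivial)
      refine ⟨((⟨n, hn⟩ : N) : N ⧸ C'), QuotientGroup.eq.2 ?_⟩
      show (r * n)⁻¹ * z ∈ M
      rwa [show (r * n)⁻¹ * z = n⁻¹ * (r⁻¹ * z) by group, ← hnm, show n⁻¹ * (n * m) = m by group]
  have hEfix : ∀ u, g • E u = E u ↔ α u = u := by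
    intro u
    obtain ⟨m, rfl⟩ := QuotientGroup.mk_surjective u
    rw [hα, QuotientGroup.eq, Subgroup.mem_subgroupOf]
    push_cast
    rw [hcv]
    show ((g * (r * m) : G) : G ⧸ M) = ((r * m : G) : G ⧸ M) ↔ _
    rw [QuotientGroup.eq]
    have e1 : (g * (r * (m : G)))⁻¹ * (r * m) = (m : G)⁻¹ * g'⁻¹ * m := by rw [hg']; group
    rw [e1]
    constructor
    · intro h
      refine hinf (Subgroup.mem_inf.2 ⟨mul_mem (inv_mem (hN.conj_mem _ m.2 g')) m.2, ?_⟩)
      rw [show (g' * (m : G) * g'⁻¹)⁻¹ * m = g' * ((m : G)⁻¹ * g'⁻¹ * m) by group]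
      exact mul_mem hg'M h
    · intro h
      rw [show (m : G)⁻¹ * g'⁻¹ * m = g'⁻¹ * ((g' * (m : G) * g'⁻¹)⁻¹ * m) by group]
      exact mul_mem (inv_mem hg'M) (hCM h)
  set B := MonoidHom.eqLocus α (MonoidHom.id _) with hB
  have hFcard : Nat.card {x : G ⧸ M // g • x = x} = Nat.card B :=
    (Nat.card_congr ((Equiv.ofBijective E hEbij).subtypeEquiv fun u => (hEfix u).symm)).symm
  rw [hFcard, ← Nat.card_congr (Equiv.ofBijective E hEbij), ← B.card_mul_index, mul_comm 3]
  refine Nat.mul_le_mul_left _ ?_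
  have h1 : B.index ≠ 1 := by
    intro h
    rw [Subgroup.index_eq_one] at h
    have hgC : g ∈ C := by
      intro b
      obtain ⟨u, hu⟩ := hEbij.2 ((b⁻¹ : G) : G ⧸ M)
      have h2 : g • ((b⁻¹ : G) : G ⧸ M) = ((b⁻¹ : G) : G ⧸ M) := by
        rw [← hu, hEfix]
        exact (h ▸ Subgroup.mem_top u : u ∈ B)
      have h3 : (g * b⁻¹)⁻¹ * b⁻¹ ∈ M := QuotientGroup.eq.1 h2
      have h4 := inv_mem h3
      rwa [show ((g * b⁻¹)⁻¹ * b⁻¹)⁻¹ = b * g * b⁻¹ by group] at h4
    exact hM.1 (top_le_iff.1 ((hgen C hCn hgC).symm.le.trans hCM))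
  have h2 : B.index ≠ 2 := by
    intro h
    apply h1
    rw [Subgroup.index_eq_one, eq_top_iff]
    intro u _
    have hsq : α (u * u) = u * u := Subgroup.mul_self_mem_of_index_two h u
    by_cases hu : u ∈ B
    · exact hu
    set w := α u * u⁻¹ with hw
    have hαu : α u ∉ B := fun h' => hu (by
      have h5 : α (α u) = α u := h'
      have hinjα : Function.Injective α := by
        intro a b hab
        rw [← hαp a, ← hαp b]
        obtain ⟨k, hk⟩ : ∃ k, p = k + 1 := ⟨p - 1, by have := hp.pos; omega⟩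
        rw [hk, Function.iterate_succ_apply, Function.iterate_succ_apply, hab]
      exact hinjα h5)
    have hwB : α w = w := (Subgroup.mul_mem_iff_of_index_two h).2 ⟨fun h' => absurd h' hαu, fun h' => absurd (inv_mem_iff.1 h') hu⟩
    have hau : α u = w * u := by rw [hw, inv_mul_cancel_right]
    have hw2 : w * w = 1 := by
      rw [map_mul, hau] at hsq
      have : w * w * (u * u) = 1 * (u * u) := by
        rw [one_mul]
        conv_rhs => rw [← hsq]
        rw [mul_assoc w u (w * u), ← mul_assoc u w u, hQc u w]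
        simp only [mul_assoc]
      exact mul_right_cancel this
    have hit : ∀ k, α^[k] u = w ^ k * u := by
      intro k
      induction k with
      | zero => simp
      | succ k ih => rw [Function.iterate_succ_apply', ih, map_mul, map_pow, hwB, hau, ← mul_assoc, pow_succ]
    have hwp : w ^ p = 1 := by
      have := (hit p).symm.trans (hαp u)
      rwa [mul_eq_right] at this
    have hw1 : w = 1 := by
      obtain ⟨k, hk⟩ := hp.odd_of_ne_two hp2
      rw [hk, pow_succ, pow_mul, sq, hw2, one_pow, one_mul] at hwp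
      exact hwp
    show α u = u
    rw [hau, hw1, one_mul]
  have h0 : B.index ≠ 0 := Subgroup.index_ne_zero_of_finite
  omega

/-- The bound for an arbitrary proper subgroup. -/
theorem fixed_coset_le {p : ℕ} (hp : p.Prime) (hp2 : p ≠ 2) {g : G} (hg : g ^ p = 1)
    (hgen : ∀ H : Subgroup G, H.Normal → g ∈ H → H = ⊤) (H : Subgroup G) (hH : H ≠ ⊤) :
    3 * Nat.card {x : G ⧸ H // g • x = x} ≤ Nat.card (G ⧸ H) := by
  classical
  obtain ⟨M, hM, hHM⟩ := (eq_top_or_exists_le_coatom H).resolve_left hH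
  set e := Subgroup.quotientEquivProdOfLE hHM with he
  have hcomp : ∀ a : G, (e (a : G ⧸ H)).1 = (a : G ⧸ M) := fun a => rfl
  have hfix : ∀ x : G ⧸ H, g • x = x → g • (e x).1 = (e x).1 := by
    intro x hx
    obtain ⟨a, rfl⟩ := QuotientGroup.mk_surjective x
    conv_rhs => rw [← hx]
    show g • (e (a : G ⧸ H)).1 = (e ((g * a : G) : G ⧸ H)).1
    rw [hcomp, hcomp]
    rfl
  let f : {x : G ⧸ H // g • x = x} → {x : G ⧸ M // g • x = x} × (M ⧸ H.subgroupOf M) :=
    fun x => (⟨(e x.1).1, hfix _ x.2⟩, (e x.1).2)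
  have hf : Function.Injective f := fun a b h => by
    simp only [f, Prod.mk.injEq, Subtype.mk.injEq] at h
    exact Subtype.ext (e.injective (Prod.ext h.1 h.2))
  have h1 := Nat.card_le_card_of_injective f hf
  rw [Nat.card_prod] at h1
  rw [Nat.card_congr e, Nat.card_prod]
  calc _ ≤ 3 * (Nat.card {x : G ⧸ M // g • x = x} * _) := Nat.mul_le_mul_left _ h1
    _ = 3 * Nat.card {x : G ⧸ M // g • x = x} * _ := (mul_assoc _ _ _).symm
    _ ≤ _ := Nat.mul_le_mul_right _ (fixed_max_le hp hp2 hg hgen M hM)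

end CfsgLib.FixedHalf
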