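import Cfsg.Agent.FixedHalf.Linear
import Cfsg.Agent.FixedHalf.Perm
import Mathlib.Algebra.CharP.Lemmas
import Mathlib.Tactic

/-!
No transvection generates normally an irreducible solvable group in characteristic at least five.
-/

set_option autoImplicit false

open scoped commutatorElement

namespace CfsgLib.FixedHalf

variable {G : Type*} [Group G] [Finite G] [Group.IsSolvable G]
variable {k : Type*} [Field k] {M : Type*} [AddCommGroup M] [Module k M]

theorem no_transvection {p : ℕ} [hp : Fact p.Prime] [CharP k p] (hp5 : 5 ≤ p)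
    (ψ : G →* Module.End k M) {g : G}
    (hgen : ∀ H : Subgroup G, H.Normal → g ∈ H → H = ⊤)
    (hirr : ∀ W : Submodule k M, (∀ h : G, ∀ w ∈ W, ψ h w ∈ W) → W = ⊥ ∨ W = ⊤)
    (a : M) (ha : a ≠ 0) (hTa : (ψ g - 1) a = 0) (hT : ψ g ≠ 1)
    (hrange : ∀ u, ∃ c : k, (ψ g - 1) u = c • a) : False := by
  classical
  set T := ψ g - 1 with hTdef
  haveI : Nontrivial M := ⟨a, 0, ha⟩
  haveI : CharP (Module.End k M) p := charP_of_injective_algebraMap (algebraMap k (Module.End k M)).injective p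
  have hinv : ∀ h : G, ψ h⁻¹ * ψ h = 1 ∧ ψ h * ψ h⁻¹ = 1 := fun h => by
    rw [← map_mul, ← map_mul, inv_mul_cancel, mul_inv_cancel, map_one]
    exact ⟨rfl, rfl⟩
  have hconj : ∀ (b h : G), ψ (b * h * b⁻¹) = ψ b * ψ h * ψ b⁻¹ := fun b h => by rw [map_mul, map_mul]
  -- elements acting centrally
  let Zs : Subgroup G :=
    { carrier := {h | ∀ j, Commute (ψ h) (ψ j)}
      one_mem' := fun j => by rw [map_one]; exact Commute.one_left _
      mul_mem' := fun {x y} hx hy j => by rw [map_mul]; exact (hx j).mul_left (hy j)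
      inv_mem' := fun {x} hx j => by
        show ψ x⁻¹ * ψ j = ψ j * ψ x⁻¹
        calc ψ x⁻¹ * ψ j = ψ x⁻¹ * (ψ j * ψ x) * ψ x⁻¹ := by
              rw [mul_assoc, mul_assoc, (hinv x).2, mul_one]
          _ = ψ j * ψ x⁻¹ := by rw [← (hx j).eq, ← mul_assoc, (hinv x).1, one_mul] }
  haveI hZn : Zs.Normal := ⟨fun h hh b j => by
    have : ψ (b * h * b⁻¹) = ψ h := by rw [hconj, ← (hh b).eq, mul_assoc, (hinv b).2, mul_one]
    rw [this]; exact hh j⟩
  -- a central unipotent element acts trivially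
  have hcen : ∀ z ∈ Zs, ψ z ^ p = 1 → ψ z = 1 := by
    intro z hz hzp
    have hnil : (ψ z - 1) ^ p = 0 := by
      have h := add_pow_char_of_commute (p := p) (Commute.one_right (ψ z - 1))
      rw [sub_add_cancel, hzp, one_pow] at h
      exact add_eq_right.1 h.symm
    obtain ⟨v, hv, hfix⟩ := exists_common_fixed (fun _ : Unit => ψ z) (fun _ _ => Commute.refl _) p (fun _ => hnil)
    rcases hirr (LinearMap.ker (ψ z - 1)) (fun h w hw => by
      rw [LinearMap.mem_ker, LinearMap.sub_apply, Module.End.one_apply, sub_eq_zero] at hw ⊢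
      rw [← Module.End.mul_apply, (hz h).eq, Module.End.mul_apply, hw]) with h | h
    · exact absurd (show v ∈ LinearMap.ker (ψ z - 1) by
        simpa [sub_eq_zero] using hfix ()) (by rw [h]; simpa using hv)
    · exact sub_eq_zero.1 (LinearMap.ker_eq_top.1 h)
  have hgZ : g ∉ Zs := fun hg => by
    rcases hirr (LinearMap.ker T) (fun h w hw => by
      rw [LinearMap.mem_ker, hTdef, LinearMap.sub_apply, Module.End.one_apply, sub_eq_zero] at hw ⊢
      rw [← Module.End.mul_apply, (hg h).eq, Module.End.mul_apply, hw]) with h | h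
    · exact ha (by rw [← Submodule.mem_bot k, ← h]; exact hTa)
    · exact hT (sub_eq_zero.1 (LinearMap.ker_eq_top.1 h))
  obtain ⟨R, hR, hRZ, hRmin⟩ := exists_min_above (fun K : Subgroup G => ¬ K ≤ Zs)
    (fun h => hgZ (h (Subgroup.mem_top g)))
  haveI := hR
  have hmin' : ∀ K : Subgroup G, K.Normal → K ≤ R → ¬ K ≤ Zs → R ≤ K := fun K h1 h2 h3 => (hRmin K h1 h2 h3).ge
  have hRR : ⁅R, R⁆ ≤ Zs := by
    by_contra h
    have hne : R ≠ ⊥ := fun h0 => hRZ (h0 ▸ bot_le)
    exact (Group.IsSolvable.commutator_lt_of_ne_bot hne).ne (hRmin _ inferInstance (Subgroup.commutator_le_self R) h)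
  -- an element of R not commuting with g
  obtain ⟨x, hxR, hx⟩ : ∃ x ∈ R, ¬ Commute (ψ x) (ψ g) := by
    by_contra hcon
    push_neg at hcon
    let Cz : Subgroup G :=
      { carrier := {h | ∀ r ∈ R, Commute (ψ r) (ψ h)}
        one_mem' := fun r _ => by rw [map_one]; exact Commute.one_right _
        mul_mem' := fun {u v} hu hv r hr => by rw [map_mul]; exact (hu r hr).mul_right (hv r hr)
        inv_mem' := fun {u} hu r hr => by
          show ψ r * ψ u⁻¹ = ψ u⁻¹ * ψ r
          calc ψ r * ψ u⁻¹ = ψ u⁻¹ * (ψ u * ψ r) * ψ u⁻¹ := by rw [← mul_assoc, (hinv u).1, one_mul]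
            _ = ψ u⁻¹ * ψ r := by rw [← (hu r hr).eq, mul_assoc, mul_assoc, (hinv u).2, mul_one] }
    have hCn : Cz.Normal := ⟨fun h hh b r hr => by
      have h1 := hh _ (hR.conj_mem r hr b⁻¹)
      rw [inv_inv] at h1
      show ψ r * ψ (b * h * b⁻¹) = ψ (b * h * b⁻¹) * ψ r
      rw [← map_mul, ← map_mul]
      have h2 : ψ (b⁻¹ * r * b * h) = ψ (h * (b⁻¹ * r * b)) := by rw [map_mul ψ (b⁻¹ * r * b) h, map_mul ψ h]; exact h1.eq
      have e1 : r * (b * h * b⁻¹) = b * (b⁻¹ * r * b * h) * b⁻¹ := by group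
      have e2 : b * h * b⁻¹ * r = b * (h * (b⁻¹ * r * b)) * b⁻¹ := by group
      rw [e1, e2, hconj, hconj, h2]⟩
    have htop := hgen Cz hCn hcon
    exact hRZ fun r hr j => ((show j ∈ Cz by rw [htop]; trivial) r hr)
  -- no nontrivial element of R is unipotent
  have hnoy : ∀ y ∈ R, ψ y ^ p = 1 → ψ y = 1 := by
    intro y hy hyp
    by_cases hyZ : y ∈ Zs
    · exact hcen y hyZ hyp
    exfalso
    have hcq : ∀ u ∈ R, ∀ v ∈ R, Commute (QuotientGroup.mk' Zs u) (QuotientGroup.mk' Zs v) := by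
      intro u hu v hv
      show _ * _ = _ * _
      rw [← map_mul, ← map_mul, QuotientGroup.mk'_apply, QuotientGroup.mk'_apply, QuotientGroup.eq,
        show (u * v)⁻¹ * (v * u) = ⁅v⁻¹, u⁻¹⁆ by rw [commutatorElement_def]; group]
      exact hRR (Subgroup.commutator_mem_commutator (inv_mem hv) (inv_mem hu))
    let P : Subgroup G :=
      { carrier := {h | h ∈ R ∧ h ^ p ∈ Zs}
        one_mem' := ⟨R.one_mem, by rw [one_pow]; exact Zs.one_mem⟩
        mul_mem' := fun {u v} hu hv => ⟨R.mul_mem hu.1 hv.1, by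
          rw [← QuotientGroup.eq_one_iff]
          show QuotientGroup.mk' Zs ((u * v) ^ p) = 1
          rw [map_pow, map_mul, (hcq u hu.1 v hv.1).mul_pow, ← map_pow, ← map_pow,
            (QuotientGroup.eq_one_iff _).2 hu.2 |> fun e => (show QuotientGroup.mk' Zs (u ^ p) = 1 from e),
            (QuotientGroup.eq_one_iff _).2 hv.2 |> fun e => (show QuotientGroup.mk' Zs (v ^ p) = 1 from e), one_mul]⟩
        inv_mem' := fun {u} hu => ⟨R.inv_mem hu.1, by rw [inv_pow]; exact Zs.inv_mem hu.2⟩ }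
    have hPn : P.Normal := ⟨fun h hh b => ⟨hR.conj_mem h hh.1 b, by rw [conj_pow]; exact hZn.conj_mem _ hh.2 b⟩⟩
    have hypZ : y ^ p ∈ Zs := fun j => by rw [map_pow, hyp]; exact Commute.one_left _
    have hRP : R ≤ P := hmin' P hPn (fun h hh => hh.1) (fun hle => hyZ (hle ⟨hy, hypZ⟩))
    have hcomm : ∀ u ∈ R, ∀ v ∈ R, Commute (ψ u) (ψ v) := by
      intro u hu v hv
      set c := ⁅u, v⁆ with hc
      have hcZ : c ∈ Zs := hRR (Subgroup.commutator_mem_commutator hu hv)
      have hpow : ∀ n : ℕ, ψ ⁅u ^ n, v⁆ = ψ c ^ n := by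
        intro n
        induction n with
        | zero => simp
        | succ n ih =>
          rw [show ⁅u ^ (n + 1), v⁆ = u * ⁅u ^ n, v⁆ * u⁻¹ * c by
            rw [hc, commutatorElement_def, commutatorElement_def, commutatorElement_def, pow_succ']; group]
          rw [map_mul, hconj, ih, ← ((hcZ u).pow_left n).eq, mul_assoc (ψ c ^ n), (hinv u).2, mul_one, pow_succ]
      have h1 : ψ c ^ p = 1 := by
        rw [← hpow p, commutatorElement_def, map_mul, map_mul, map_mul, ((hRP hu).2 v).eq]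
        rw [mul_assoc (ψ v), (hinv _).2, mul_one, (hinv v).2]
      have h2 := hcen c hcZ h1
      show ψ u * ψ v = ψ v * ψ u
      rw [← map_mul, ← map_mul, show u * v = c * (v * u) by rw [hc, commutatorElement_def]; group, map_mul, h2, one_mul]
    let E : Subgroup G :=
      { carrier := {h | h ∈ R ∧ ψ h ^ p = 1}
        one_mem' := ⟨R.one_mem, by rw [map_one, one_pow]⟩
        mul_mem' := fun {u v} hu hv => ⟨R.mul_mem hu.1 hv.1, by
          rw [map_mul, (hcomm u hu.1 v hv.1).mul_pow, hu.2, hv.2, one_mul]⟩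
        inv_mem' := fun {u} hu => ⟨R.inv_mem hu.1, by
          rw [← map_pow, inv_pow]
          have h := (hinv (u ^ p)).1
          rwa [map_pow ψ u p, hu.2, mul_one] at h⟩ }
    have hEn : E.Normal := ⟨fun h hh b => ⟨hR.conj_mem h hh.1 b, by
      rw [← map_pow, conj_pow, hconj, map_pow, hh.2, mul_one, (hinv b).2]⟩⟩
    have hRE : R ≤ E := hmin' E hEn (fun h hh => hh.1) (fun hle => hyZ (hle ⟨hy, hyp⟩))
    obtain ⟨v, hv, hfix⟩ := exists_common_fixed (fun r : R => ψ r) (fun r s => hcomm r r.2 s s.2) p (fun r => by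
      have h := add_pow_char_of_commute (p := p) (Commute.one_right (ψ (r : G) - 1))
      rw [sub_add_cancel, (hRE r.2).2, one_pow] at h
      exact add_eq_right.1 h.symm)
    let F : Submodule k M := ⨅ r : R, LinearMap.ker (ψ r - 1)
    have hF : ∀ w, w ∈ F ↔ ∀ r : R, ψ r w = w := fun w => by simp [F, sub_eq_zero]
    rcases hirr F (fun h w hw => by
      rw [hF] at hw ⊢
      intro r
      have h1 := hw ⟨_, hR.conj_mem _ r.2 h⁻¹⟩
      rw [show ψ (r : G) (ψ h w) = (ψ r * ψ h) w from rfl, ← map_mul,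
        show (r : G) * h = h * (h⁻¹ * r * h⁻¹⁻¹) by group, map_mul]
      show ψ h (ψ (h⁻¹ * r * h⁻¹⁻¹) w) = ψ h w
      rw [h1]) with h | h
    · exact hv (by rw [← Submodule.mem_bot k, ← h, hF]; exact fun r => hfix r)
    · apply hRZ
      intro r hr j
      have : ψ r = 1 := LinearMap.ext fun w => ((hF w).1 (by rw [h]; trivial)) ⟨r, hr⟩
      rw [this]; exact Commute.one_left _
  -- the two transvections
  set S := ψ x * T * ψ x⁻¹ with hS
  set b := ψ x a with hb
  have hgT : ψ g = 1 + T := by rw [hTdef, add_sub_cancel]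
  have hTT : T * T = 0 := LinearMap.ext fun u => by
    obtain ⟨c, hc⟩ := hrange u
    rw [Module.End.mul_apply, hc, map_smul, hTa, smul_zero]; rfl
  have hSS : S * S = 0 := by
    rw [hS, show ψ x * T * ψ x⁻¹ * (ψ x * T * ψ x⁻¹) = ψ x * T * (ψ x⁻¹ * ψ x) * T * ψ x⁻¹ by noncomm_ring,
      (hinv x).1, mul_one, mul_assoc (ψ x), hTT, mul_zero, zero_mul]
  have hxinv : ∀ w, ψ x⁻¹ (ψ x w) = w := fun w => LinearMap.congr_fun (hinv x).1 w
  have hSb : S b = 0 := by
    show ψ x (T (ψ x⁻¹ (ψ x a))) = 0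
    rw [hxinv, hTa, map_zero]
  have hSr : ∀ u, ∃ c : k, S u = c • b := fun u => by
    obtain ⟨c, hc⟩ := hrange (ψ x⁻¹ u)
    exact ⟨c, by show ψ x (T (ψ x⁻¹ u)) = c • b; rw [hc, map_smul]⟩
  obtain ⟨μ, hμ⟩ := hrange b
  obtain ⟨ν, hν⟩ := hSr a
  have hpow1 : ∀ n : ℕ, ψ (g ^ n) = 1 + (n : k) • T := by
    intro n
    induction n with
    | zero => simp
    | succ n ih =>
      rw [pow_succ, map_mul, ih, hgT, add_mul, one_mul, mul_add, mul_one, smul_mul_assoc, hTT, smul_zero, add_zero,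
        Nat.cast_succ, add_smul, one_smul]
      abel
  have hpowinv : ∀ n : ℕ, ψ (g ^ n)⁻¹ = 1 - (n : k) • T := by
    intro n
    calc ψ (g ^ n)⁻¹ = ψ (g ^ n)⁻¹ * (ψ (g ^ n) * (1 - (n : k) • T)) := by
          rw [hpow1, add_mul, one_mul, mul_sub, mul_one, smul_mul_smul_comm, hTT, smul_zero, sub_zero,
            sub_add_cancel, mul_one]
      _ = 1 - (n : k) • T := by rw [← mul_assoc, (hinv _).1, one_mul]
  let Y : ℕ → G := fun n => (g ^ n)⁻¹ * (x * g ^ n * x⁻¹)
  have hYR : ∀ n, Y n ∈ R := fun n => by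
    show (g ^ n)⁻¹ * (x * g ^ n * x⁻¹) ∈ R
    rw [show (g ^ n)⁻¹ * (x * g ^ n * x⁻¹) = (g ^ n)⁻¹ * x * (g ^ n)⁻¹⁻¹ * x⁻¹ by group]
    exact R.mul_mem (hR.conj_mem x hxR _) (R.inv_mem hxR)
  have hYψ : ∀ n : ℕ, ψ (Y n) = (1 - (n : k) • T) * (1 + (n : k) • S) := fun n => by
    rw [map_mul, hpowinv, hconj, hpow1, mul_add, mul_one, add_mul, (hinv x).2, hS, mul_smul_comm, smul_mul_assoc]
  have hY1 : ψ (Y 1) ≠ 1 := by
    intro h
    apply hx
    have h2 : ψ (x * g * x⁻¹) = ψ g := by
      have e : x * g * x⁻¹ = g * Y 1 := by simp only [Y, pow_one]; group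
      rw [e, map_mul, h, mul_one]
    show ψ x * ψ g = ψ g * ψ x
    conv_rhs => rw [← h2, hconj, mul_assoc, (hinv x).1, mul_one]
  have hN3 : μ = 0 ∨ ν = 0 → False := by
    intro h0
    apply hY1
    refine hnoy _ (hYR 1) ?_
    have hY : ψ (Y 1) = 1 + (S - T - T * S) := by
      rw [hYψ, Nat.cast_one, one_smul, one_smul]; noncomm_ring
    have h3 : (S - T - T * S) ^ 3 = 0 := by
      rcases h0 with h0 | h0
      · have hTS : T * S = 0 := LinearMap.ext fun u => by
          obtain ⟨c, hc⟩ := hSr u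
          rw [Module.End.mul_apply, hc, map_smul, hμ, h0, zero_smul, smul_zero]; rfl
        rw [hTS, sub_zero, pow_succ, sq]
        calc (S - T) * (S - T) * (S - T)
            = S * S * S - S * S * T - S * (T * S) + S * (T * T) - T * (S * S) + T * S * T + T * T * S - T * T * T := by
              noncomm_ring
          _ = 0 := by rw [hTS, hTT, hSS]; simp
      · have hST : S * T = 0 := LinearMap.ext fun u => by
          obtain ⟨c, hc⟩ := hrange u
          rw [Module.End.mul_apply, hc, map_smul, hν, h0, zero_smul, smul_zero]; rfl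
        have h2 : (S - T - T * S) * (S - T - T * S) = -(T * S) := by
          calc (S - T - T * S) * (S - T - T * S) = S * S - S * T - S * T * S - T * S + T * T + T * T * S
                - T * (S * S) + T * (S * T) + T * (S * T) * S := by noncomm_ring
            _ = -(T * S) := by rw [hST, hTT, hSS]; simp
        rw [pow_succ, sq, h2]
        calc -(T * S) * (S - T - T * S) = -(T * (S * S)) + T * (S * T) + T * (S * T) * S := by noncomm_ring
          _ = 0 := by rw [hST, hSS]; simp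
    rw [hY, add_pow_char_of_commute (p := p) (Commute.one_left _), one_pow, ← Nat.sub_add_cancel (show 3 ≤ p by omega),
      pow_add, h3, mul_zero, add_zero]
  have hμ0 : μ ≠ 0 := fun h => hN3 (Or.inl h)
  have hν0 : ν ≠ 0 := fun h => hN3 (Or.inr h)
  have hind : ∀ c d : k, c • a + d • b = 0 → c = 0 ∧ d = 0 := by
    intro c d h
    have h1 := congrArg T h
    rw [map_add, map_smul, map_smul, hTa, hμ, smul_zero, zero_add, smul_smul, map_zero] at h1
    have hd : d = 0 := ((mul_eq_zero.1 ((smul_eq_zero.1 h1).resolve_right ha))).resolve_right hμ0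
    rw [hd, zero_smul, add_zero] at h
    exact ⟨(smul_eq_zero.1 h).resolve_right ha, hd⟩
  have key : ∀ i j : ℕ, (i : k) ≠ 0 → (j : k) ≠ 0 → (i : k) ≠ (j : k) → (i : k) * j * (μ * ν) = 1 := by
    intro i j hi hj hij
    set C := ψ ⁅Y i, Y j⁆ with hC
    have hCZ := hRR (Subgroup.commutator_mem_commutator (hYR i) (hYR j))
    have hrel : ψ (Y i) * ψ (Y j) = C * (ψ (Y j) * ψ (Y i)) := by
      rw [hC, ← map_mul, ← map_mul, ← map_mul, commutatorElement_def]; congr 1; group
    have hCT : Commute C T := by rw [hTdef]; exact (hCZ g).sub_right (Commute.one_right _)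
    have hCS : Commute C S := by rw [hS]; exact ((hCZ x).mul_right hCT).mul_right (hCZ x⁻¹)
    obtain ⟨α, hα⟩ := hrange (C b)
    obtain ⟨γ, hCa⟩ : ∃ γ : k, C a = γ • a := ⟨μ⁻¹ * α, by
      have h1 := LinearMap.congr_fun hCT.eq b
      rw [Module.End.mul_apply, Module.End.mul_apply, hμ, map_smul, hα] at h1
      rw [mul_smul, ← h1, smul_smul, inv_mul_cancel₀ hμ0, one_smul]⟩
    have hCb : C b = γ • b := by
      have h1 : C (S a) = S (C a) := LinearMap.congr_fun hCS.eq a
      rw [hν, map_smul, hCa, map_smul, hν, smul_comm γ ν] at h1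
      exact smul_right_injective M hν0 h1
    have happ : ∀ (n : ℕ) (c d : k), ψ (Y n) (c • a + d • b) =
        (c - (n : k) * μ * (d + c * ((n : k) * ν))) • a + (d + c * ((n : k) * ν)) • b := by
      intro n c d
      rw [hYψ]
      simp only [Module.End.mul_apply, LinearMap.add_apply, LinearMap.sub_apply, Module.End.one_apply,
        LinearMap.smul_apply, map_add, map_sub, map_smul, hν, hSb, hμ, hTa, smul_zero, add_zero]
      module
    have h2 := LinearMap.congr_fun hrel ((0 : k) • a + (1 : k) • b)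
    rw [Module.End.mul_apply, Module.End.mul_apply, Module.End.mul_apply, happ, happ, happ, happ, map_add, map_smul,
      map_smul, hCa, hCb, smul_smul, smul_smul, ← sub_eq_zero, add_sub_add_comm, ← sub_smul, ← sub_smul] at h2
    obtain ⟨e1, e2⟩ := hind _ _ h2
    by_contra hne
    have hγ : γ = 1 := by
      by_contra hγ
      apply hne
      have : (1 - (i : k) * j * (μ * ν)) * (1 - γ) = 0 := by linear_combination e2
      exact ((sub_eq_zero.1 ((mul_eq_zero.1 this).resolve_right (sub_ne_zero.2 (Ne.symm hγ))))).symm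
    subst hγ
    have : (i : k) * j * μ * (μ * ν) * ((i : k) - j) = 0 := by linear_combination e1
    simp [hi, hj, hμ0, hν0, sub_eq_zero, hij] at this
  have hc : ∀ n : ℕ, 0 < n → n < 5 → (n : k) ≠ 0 := fun n h1 h2 h => by
    have := Nat.le_of_dvd h1 ((CharP.cast_eq_zero_iff k p n).1 h)
    omega
  have k12 := key 1 2 (hc 1 one_pos (by norm_num)) (hc 2 two_pos (by norm_num)) (fun h => hc 1 one_pos (by norm_num) (by push_cast at h ⊢; linear_combination -h))
  have k13 := key 1 3 (hc 1 one_pos (by norm_num)) (hc 3 (by norm_num) (by norm_num)) (fun h => hc 2 two_pos (by norm_num) (by push_cast at h ⊢; linear_combination -h))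
  exact mul_ne_zero hμ0 hν0 (by push_cast at k12 k13; linear_combination k13 - k12)

end CfsgLib.FixedHalf
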